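import Mathlib
import Cfsg.Agent.H352.Icos

/-!
The wreath product `3 ≀ S₃` by generators and relations.
-/

set_option autoImplicit false

namespace Cfsg.Agent.H352.Wreath162

/-- The relations. -/
structure Rels {G : Type*} [Group G] (e s t : G) : Prop where
  e3 : e ^ 3 = 1
  s3 : s ^ 3 = 1
  t2 : t ^ 2 = 1
  st : (s * t) ^ 2 = 1
  et : e * t = t * e
  ee : e * (s * e * s⁻¹) = s * e * s⁻¹ * e

theorem exists_fin {G : Type*} [Group G] (x : G) (n : ℕ) (hn : 0 < n) (hx : x ^ n = 1) (a : ℤ) :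
    ∃ k : Fin n, x ^ a = x ^ (k : ℕ) := by
  have h0 : (0 : ℤ) < n := by exact_mod_cast hn
  refine ⟨⟨(a % n).toNat, ?_⟩, ?_⟩
  · have h1 := Int.emod_lt_of_pos a h0
    have h2 := Int.emod_nonneg a h0.ne'
    omega
  · have h2 := Int.emod_nonneg a h0.ne'
    show x ^ a = x ^ ((a % n).toNat)
    rw [← zpow_natCast, Int.toNat_of_nonneg h2]
    conv_lhs => rw [← Int.mul_ediv_add_emod a n, zpow_add, zpow_mul, zpow_natCast, hx, one_zpow,
      one_mul]

section

variable {G : Type*} [Group G] {e0 s t : G} (h : Rels e0 s t)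

include h

theorem card_le (hgen : Subgroup.closure ({e0, s, t} : Set G) = ⊤) :
    Finite G ∧ Nat.card G ≤ 162 := by
  classical
  obtain ⟨e3, s3, t2, st, et, ee⟩ := h
  obtain ⟨e1, he1⟩ : ∃ e1, e1 = s * e0 * s⁻¹ := ⟨_, rfl⟩
  obtain ⟨e2, he2⟩ : ∃ e2, e2 = s⁻¹ * e0 * s := ⟨_, rfl⟩
  rw [← he1] at ee
  have hsinv : s⁻¹ = s * s := by
    rw [inv_eq_iff_mul_eq_one, ← s3]; simp only [pow_succ, pow_zero, one_mul]; rw [mul_assoc]
  have htinv : t⁻¹ = t := by
    rw [inv_eq_iff_mul_eq_one, ← pow_two, t2]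
  have hts : t * s = s⁻¹ * t := by
    have h1 : s * t * (s * t) = 1 := by rw [← pow_two]; exact st
    have h2 : t * s = s⁻¹ * (s * t * (s * t)) * t⁻¹ := by group
    rw [h2, h1, mul_one, htinv]
  have hss : s * s * s = 1 := by
    rw [← s3]; simp only [pow_succ, pow_zero, one_mul]
  have s0 : s * e0 = e1 * s := by rw [he1]; group
  have s1 : s * e1 = e2 * s := by
    rw [he1, he2, hsinv]
    have : s * (s * e0 * (s * s)) = s * s * e0 * (s * s) := by group
    rw [this, mul_assoc (s * s * e0) s s]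
  have s2 : s * e2 = e0 * s := by rw [he2]; group
  have c01 : e0 * e1 = e1 * e0 := ee
  have c12 : e1 * e2 = e2 * e1 := by
    have h1 : e1 * e2 = s * (e0 * e1) * s⁻¹ := by
      rw [← mul_assoc s, s0, mul_assoc e1 s e1, s1, ← mul_assoc, mul_inv_cancel_right]
    have h2 : e2 * e1 = s * (e1 * e0) * s⁻¹ := by
      rw [← mul_assoc s, s1, mul_assoc e2 s e0, s0, ← mul_assoc, mul_inv_cancel_right]
    rw [h1, h2, c01]
  have c02 : e0 * e2 = e2 * e0 := by
    have h1 : e0 * e2 = s * (e2 * e1) * s⁻¹ := by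
      rw [← mul_assoc s, s2, mul_assoc e0 s e1, s1, ← mul_assoc, mul_inv_cancel_right]
    have h2 : e2 * e0 = s * (e1 * e2) * s⁻¹ := by
      rw [← mul_assoc s, s1, mul_assoc e2 s e2, s2, ← mul_assoc, mul_inv_cancel_right]
    rw [h1, h2, c12]
  have t0 : t * e0 = e0 * t := et.symm
  have hts' : t * s⁻¹ = s * t := by
    have h1 : t * s * s⁻¹ = s⁻¹ * t * s⁻¹ := by rw [hts]
    rw [mul_inv_cancel_right] at h1
    calc t * s⁻¹ = s * (s⁻¹ * t * s⁻¹) := by group
      _ = s * t := by rw [← h1]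
  have t1 : t * e1 = e2 * t := by
    rw [he1, he2]
    calc t * (s * e0 * s⁻¹) = (t * s) * e0 * s⁻¹ := by group
      _ = s⁻¹ * (t * e0) * s⁻¹ := by rw [hts]; group
      _ = s⁻¹ * e0 * (t * s⁻¹) := by rw [← et]; group
      _ = s⁻¹ * e0 * s * t := by rw [hts']; group
  have t2' : t * e2 = e1 * t := by
    rw [he1, he2]
    calc t * (s⁻¹ * e0 * s) = (t * s⁻¹) * e0 * s := by group
      _ = s * (t * e0) * s := by rw [hts']; group
      _ = s * e0 * (t * s) := by rw [← et]; group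
      _ = s * e0 * s⁻¹ * t := by rw [hts]; group
  have z01 : ∀ a b : ℤ, e0 ^ a * e1 ^ b = e1 ^ b * e0 ^ a := fun a b =>
    ((show Commute e0 e1 from c01).zpow_zpow a b).eq
  have z12 : ∀ a b : ℤ, e1 ^ a * e2 ^ b = e2 ^ b * e1 ^ a := fun a b =>
    ((show Commute e1 e2 from c12).zpow_zpow a b).eq
  have z02 : ∀ a b : ℤ, e0 ^ a * e2 ^ b = e2 ^ b * e0 ^ a := fun a b =>
    ((show Commute e0 e2 from c02).zpow_zpow a b).eq
  have sz0 : ∀ a : ℤ, s * e0 ^ a = e1 ^ a * s := fun a => (show SemiconjBy s e0 e1 from s0).zpow_right a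
  have sz1 : ∀ a : ℤ, s * e1 ^ a = e2 ^ a * s := fun a => (show SemiconjBy s e1 e2 from s1).zpow_right a
  have sz2 : ∀ a : ℤ, s * e2 ^ a = e0 ^ a * s := fun a => (show SemiconjBy s e2 e0 from s2).zpow_right a
  have tz0 : ∀ a : ℤ, t * e0 ^ a = e0 ^ a * t := fun a => (show SemiconjBy t e0 e0 from t0).zpow_right a
  have tz1 : ∀ a : ℤ, t * e1 ^ a = e2 ^ a * t := fun a => (show SemiconjBy t e1 e2 from t1).zpow_right a
  have tz2 : ∀ a : ℤ, t * e2 ^ a = e1 ^ a * t := fun a => (show SemiconjBy t e2 e1 from t2').zpow_right a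
  have tzs : ∀ a : ℤ, t * s ^ a = s ^ (-a) * t := fun a => by
    rw [zpow_neg, ← inv_zpow]
    exact (show SemiconjBy t s s⁻¹ from hts).zpow_right a
  let f : Fin 3 × Fin 3 × Fin 3 × Fin 3 × Fin 2 → G := fun p =>
    e0 ^ (p.1 : ℕ) * e1 ^ (p.2.1 : ℕ) * e2 ^ (p.2.2.1 : ℕ) * s ^ (p.2.2.2.1 : ℕ) *
      t ^ (p.2.2.2.2 : ℕ)
  have e13 : e1 ^ 3 = 1 := by
    have : e1 ^ 3 = s * e0 ^ 3 * s⁻¹ := by rw [he1]; exact conj_pow
    rw [this, e3]; group
  have e23 : e2 ^ 3 = 1 := by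
    have : e2 ^ 3 = s⁻¹ * e0 ^ 3 * s := by
      have := conj_pow (i := 3) (a := s⁻¹) (b := e0)
      rw [inv_inv] at this
      rw [he2, this]
    rw [this, e3]; group
  have hf : ∀ a b c i k : ℤ, ∃ p, f p = e0 ^ a * e1 ^ b * e2 ^ c * s ^ i * t ^ k := by
    intro a b c i k
    obtain ⟨a', ha⟩ := exists_fin e0 3 (by norm_num) e3 a
    obtain ⟨b', hb⟩ := exists_fin e1 3 (by norm_num) e13 b
    obtain ⟨c', hc⟩ := exists_fin e2 3 (by norm_num) e23 c
    obtain ⟨i', hi⟩ := exists_fin s 3 (by norm_num) s3 i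
    obtain ⟨k', hk⟩ := exists_fin t 2 (by norm_num) t2 k
    exact ⟨(a', b', c', i', k'), by rw [ha, hb, hc, hi, hk]⟩
  have hf' : ∀ p, ∃ a b c i k : ℤ, f p = e0 ^ a * e1 ^ b * e2 ^ c * s ^ i * t ^ k := by
    rintro ⟨a, b, c, i, k⟩
    exact ⟨a, b, c, i, k, by simp only [f, zpow_natCast]⟩
  let F : Finset G := Finset.univ.image f
  have hF : ∀ g, g ∈ F ↔ ∃ p, f p = g := by
    intro g; simp [F]
  have huniv := Icos.univ_of_closed (G := G) (X := G) ({e0, s, t} : Set G) hgen F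
    ⟨f (0, 0, 0, 0, 0), by rw [hF]; exact ⟨_, rfl⟩⟩ (by
      rintro g (rfl | rfl | rfl) p hp
      · rw [hF] at hp
        obtain ⟨q, rfl⟩ := hp
        obtain ⟨a, b, c, i, k, hq⟩ := hf' q
        obtain ⟨r, hr⟩ := hf (a + 1) b c i k
        rw [hF]
        refine ⟨r, ?_⟩
        rw [hr, smul_eq_mul, hq, add_comm a 1, zpow_add, zpow_one]
        group
      · rw [hF] at hp
        obtain ⟨q, rfl⟩ := hp
        obtain ⟨a, b, c, i, k, hq⟩ := hf' q
        obtain ⟨r, hr⟩ := hf c a b (i + 1) k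
        rw [hF]
        refine ⟨r, ?_⟩
        rw [hr, smul_eq_mul, hq, add_comm i 1, zpow_add, zpow_one]
        symm
        calc g * (e0 ^ a * e1 ^ b * e2 ^ c * g ^ i * t ^ k)
            = (g * e0 ^ a) * e1 ^ b * e2 ^ c * g ^ i * t ^ k := by simp only [mul_assoc]
          _ = e1 ^ a * (g * e1 ^ b) * e2 ^ c * g ^ i * t ^ k := by rw [sz0]; simp only [mul_assoc]
          _ = e1 ^ a * e2 ^ b * (g * e2 ^ c) * g ^ i * t ^ k := by rw [sz1]; simp only [mul_assoc]
          _ = (e1 ^ a * e2 ^ b) * e0 ^ c * (g * g ^ i) * t ^ k := by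
            rw [sz2]; simp only [mul_assoc]
          _ = e1 ^ a * (e2 ^ b * e0 ^ c) * (g * g ^ i) * t ^ k := by simp only [mul_assoc]
          _ = (e1 ^ a * e0 ^ c) * e2 ^ b * (g * g ^ i) * t ^ k := by
            rw [← z02]; simp only [mul_assoc]
          _ = e0 ^ c * e1 ^ a * e2 ^ b * (g * g ^ i) * t ^ k := by rw [← z01]
      · rw [hF] at hp
        obtain ⟨q, rfl⟩ := hp
        obtain ⟨a, b, c, i, k, hq⟩ := hf' q
        obtain ⟨r, hr⟩ := hf a c b (-i) (k + 1)
        rw [hF]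
        refine ⟨r, ?_⟩
        rw [hr, smul_eq_mul, hq, add_comm k 1, zpow_add, zpow_one]
        symm
        calc g * (e0 ^ a * e1 ^ b * e2 ^ c * s ^ i * g ^ k)
            = (g * e0 ^ a) * e1 ^ b * e2 ^ c * s ^ i * g ^ k := by simp only [mul_assoc]
          _ = e0 ^ a * (g * e1 ^ b) * e2 ^ c * s ^ i * g ^ k := by rw [tz0]; simp only [mul_assoc]
          _ = e0 ^ a * e2 ^ b * (g * e2 ^ c) * s ^ i * g ^ k := by rw [tz1]; simp only [mul_assoc]
          _ = e0 ^ a * (e2 ^ b * e1 ^ c) * (g * s ^ i) * g ^ k := by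
            rw [tz2]; simp only [mul_assoc]
          _ = e0 ^ a * (e1 ^ c * e2 ^ b) * (s ^ (-i) * g) * g ^ k := by rw [← z12, tzs]
          _ = e0 ^ a * e1 ^ c * e2 ^ b * s ^ (-i) * (g * g ^ k) := by simp only [mul_assoc])
  have hfin : Finite G := by
    have : Function.Surjective f := fun g => (hF g).1 (huniv g)
    exact Finite.of_surjective f this
  refine ⟨hfin, ?_⟩
  have hs : Function.Surjective f := fun g => (hF g).1 (huniv g)
  have := Nat.card_le_card_of_surjective f hs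
  simpa using this

end

/-- the relators -/
abbrev R : Set (FreeGroup (Fin 3)) :=
  {FreeGroup.of 0 ^ 3, FreeGroup.of 1 ^ 3, FreeGroup.of 2 ^ 2,
    (FreeGroup.of 1 * FreeGroup.of 2) ^ 2,
    FreeGroup.of 0 * FreeGroup.of 2 * (FreeGroup.of 2 * FreeGroup.of 0)⁻¹,
    FreeGroup.of 0 * (FreeGroup.of 1 * FreeGroup.of 0 * (FreeGroup.of 1)⁻¹) *
      (FreeGroup.of 1 * FreeGroup.of 0 * (FreeGroup.of 1)⁻¹ * FreeGroup.of 0)⁻¹}

theorem rels_presented : Rels (G := PresentedGroup R) (PresentedGroup.of 0) (PresentedGroup.of 1)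
    (PresentedGroup.of 2) where
  e3 := PresentedGroup.one_of_mem (rels := R) (by simp [R])
  s3 := PresentedGroup.one_of_mem (rels := R) (by simp [R])
  t2 := PresentedGroup.one_of_mem (rels := R) (by simp [R])
  st := PresentedGroup.one_of_mem (rels := R) (by simp [R])
  et := mul_inv_eq_one.1 (PresentedGroup.one_of_mem (rels := R)
    (x := FreeGroup.of 0 * FreeGroup.of 2 * (FreeGroup.of 2 * FreeGroup.of 0)⁻¹) (by simp [R]))
  ee := mul_inv_eq_one.1 (PresentedGroup.one_of_mem (rels := R)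
    (x := FreeGroup.of 0 * (FreeGroup.of 1 * FreeGroup.of 0 * (FreeGroup.of 1)⁻¹) *
      (FreeGroup.of 1 * FreeGroup.of 0 * (FreeGroup.of 1)⁻¹ * FreeGroup.of 0)⁻¹) (by simp [R]))

theorem card_presented : Finite (PresentedGroup R) ∧ Nat.card (PresentedGroup R) ≤ 162 := by
  apply card_le rels_presented
  rw [eq_top_iff, ← PresentedGroup.closure_range_of R, Subgroup.closure_le]
  rintro g ⟨i, rfl⟩
  apply Subgroup.subset_closure
  fin_cases i
  · exact Or.inl rfl
  · exact Or.inr (Or.inl rfl)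
  · exact Or.inr (Or.inr rfl)

theorem presented_equiv {G : Type*} [Group G] (hG : 162 ≤ Nat.card G) {e s t : G}
    (h : Rels e s t) (hgen : Subgroup.closure ({e, s, t} : Set G) = ⊤) :
    Nonempty (PresentedGroup R ≃* G) := by
  let gens : Fin 3 → G := ![e, s, t]
  have hrel : ∀ r ∈ R, FreeGroup.lift gens r = 1 := by
    intro r hr
    rcases hr with rfl | rfl | rfl | rfl | rfl | rfl
    · simp only [map_pow, FreeGroup.lift_apply_of]; exact h.e3
    · simp only [map_pow, FreeGroup.lift_apply_of]; exact h.s3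
    · simp only [map_pow, FreeGroup.lift_apply_of]; exact h.t2
    · simp only [map_pow, map_mul, FreeGroup.lift_apply_of]; exact h.st
    · simp only [map_mul, map_inv, FreeGroup.lift_apply_of]
      exact mul_inv_eq_one.2 h.et
    · simp only [map_mul, map_inv, FreeGroup.lift_apply_of]
      exact mul_inv_eq_one.2 h.ee
  let φ : PresentedGroup R →* G := PresentedGroup.toGroup hrel
  have h0 : φ (PresentedGroup.of 0) = e := PresentedGroup.toGroup.of hrel
  have h1 : φ (PresentedGroup.of 1) = s := PresentedGroup.toGroup.of hrel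
  have h2 : φ (PresentedGroup.of 2) = t := PresentedGroup.toGroup.of hrel
  have hsurj : Function.Surjective φ := by
    rw [← MonoidHom.range_eq_top, eq_top_iff, ← hgen, Subgroup.closure_le]
    rintro g (rfl | rfl | rfl)
    · exact ⟨_, h0⟩
    · exact ⟨_, h1⟩
    · exact ⟨_, h2⟩
  obtain ⟨hf, hc⟩ := card_presented
  have hGf : Finite G := Finite.of_surjective φ hsurj
  have hcard : Nat.card (PresentedGroup R) = Nat.card G := by
    apply le_antisymm
    · exact hc.trans hG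
    · exact Nat.card_le_card_of_surjective φ hsurj
  exact ⟨MulEquiv.ofBijective φ ((Nat.bijective_iff_surjective_and_card φ).2 ⟨hsurj, hcard⟩)⟩

end Cfsg.Agent.H352.Wreath162
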