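import Mathlib
import Cfsg.Agent.H352.Wreath162

/-!
The centralizer in `Sym(9)` of a product of three disjoint three-cycles.
-/

set_option autoImplicit false

namespace Cfsg.Agent.H352.CentSym9

open Equiv Cfsg.Agent.H352.Wreath162

/-- the product of three three-cycles -/
abbrev g9 : Perm (Fin 9) := Equiv.swap (0 : Fin 9) 1 * Equiv.swap 1 2 * Equiv.swap 3 4 * Equiv.swap 4 5 * Equiv.swap 6 7 * Equiv.swap 7 8

/-- the centralizer -/
abbrev C : Subgroup (Perm (Fin 9)) := Subgroup.centralizer ({g9} : Set (Perm (Fin 9)))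

theorem cycleType_g9 : g9.cycleType = {3, 3, 3} := by
  have h1 : (Equiv.swap (0 : Fin 9) 1 * Equiv.swap 1 2).IsThreeCycle := by
    have : Equiv.swap (0 : Fin 9) 1 * Equiv.swap 1 2 = Equiv.swap (1 : Fin 9) 0 * Equiv.swap 1 2 := by decide
    rw [this]; exact Equiv.Perm.isThreeCycle_swap_mul_swap_same (by decide) (by decide) (by decide)
  have h2 : (Equiv.swap (3 : Fin 9) 4 * Equiv.swap 4 5).IsThreeCycle := by
    have : Equiv.swap (3 : Fin 9) 4 * Equiv.swap 4 5 = Equiv.swap (4 : Fin 9) 3 * Equiv.swap 4 5 := by decide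
    rw [this]; exact Equiv.Perm.isThreeCycle_swap_mul_swap_same (by decide) (by decide) (by decide)
  have h3 : (Equiv.swap (6 : Fin 9) 7 * Equiv.swap 7 8).IsThreeCycle := by
    have : Equiv.swap (6 : Fin 9) 7 * Equiv.swap 7 8 = Equiv.swap (7 : Fin 9) 6 * Equiv.swap 7 8 := by decide
    rw [this]; exact Equiv.Perm.isThreeCycle_swap_mul_swap_same (by decide) (by decide) (by decide)
  have e : g9 = (Equiv.swap (0 : Fin 9) 1 * Equiv.swap 1 2) *
      ((Equiv.swap (3 : Fin 9) 4 * Equiv.swap 4 5) * (Equiv.swap (6 : Fin 9) 7 * Equiv.swap 7 8)) := by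
    simp only [g9, mul_assoc]
  have d1 : Equiv.Perm.Disjoint (Equiv.swap (3 : Fin 9) 4 * Equiv.swap 4 5)
      (Equiv.swap (6 : Fin 9) 7 * Equiv.swap 7 8) := by
    intro x; revert x; decide
  have d2 : Equiv.Perm.Disjoint (Equiv.swap (0 : Fin 9) 1 * Equiv.swap 1 2)
      ((Equiv.swap (3 : Fin 9) 4 * Equiv.swap 4 5) * (Equiv.swap (6 : Fin 9) 7 * Equiv.swap 7 8)) := by
    intro x; revert x; decide
  rw [e, d2.cycleType_mul, d1.cycleType_mul, h1.cycleType, h2.cycleType, h3.cycleType]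
  rfl

theorem card_C : Nat.card C = 162 := by
  rw [Equiv.Perm.nat_card_centralizer, cycleType_g9]
  decide

/-- first generator -/
def e9 : C := ⟨Equiv.swap 0 1 * Equiv.swap 1 2, by
  rw [Subgroup.mem_centralizer_singleton_iff]; decide⟩

/-- second generator -/
def s9 : C := ⟨finRotate 9 * finRotate 9 * finRotate 9, by
  rw [Subgroup.mem_centralizer_singleton_iff]; decide⟩

/-- third generator -/
def t9 : C := ⟨Equiv.swap 3 6 * Equiv.swap 4 7 * Equiv.swap 5 8, by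
  rw [Subgroup.mem_centralizer_singleton_iff]; decide⟩

theorem rels9 : Rels e9 s9 t9 where
  e3 := Subtype.ext (by
    show (Equiv.swap (0 : Fin 9) 1 * Equiv.swap 1 2) ^ 3 = 1
    decide)
  s3 := Subtype.ext (by
    show (finRotate 9 * finRotate 9 * finRotate 9) ^ 3 = 1
    decide)
  t2 := Subtype.ext (by
    show (Equiv.swap (3 : Fin 9) 6 * Equiv.swap 4 7 * Equiv.swap 5 8) ^ 2 = 1
    decide)
  st := Subtype.ext (by
    show ((finRotate 9 * finRotate 9 * finRotate 9) *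
      (Equiv.swap (3 : Fin 9) 6 * Equiv.swap 4 7 * Equiv.swap 5 8)) ^ 2 = 1
    decide)
  et := Subtype.ext (by
    show (Equiv.swap (0 : Fin 9) 1 * Equiv.swap 1 2) *
      (Equiv.swap (3 : Fin 9) 6 * Equiv.swap 4 7 * Equiv.swap 5 8) =
      (Equiv.swap (3 : Fin 9) 6 * Equiv.swap 4 7 * Equiv.swap 5 8) *
      (Equiv.swap (0 : Fin 9) 1 * Equiv.swap 1 2)
    decide)
  ee := Subtype.ext (by
    show (Equiv.swap (0 : Fin 9) 1 * Equiv.swap 1 2) *
      ((finRotate 9 * finRotate 9 * finRotate 9) * (Equiv.swap (0 : Fin 9) 1 * Equiv.swap 1 2) *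
        (finRotate 9 * finRotate 9 * finRotate 9)⁻¹) =
      ((finRotate 9 * finRotate 9 * finRotate 9) * (Equiv.swap (0 : Fin 9) 1 * Equiv.swap 1 2) *
        (finRotate 9 * finRotate 9 * finRotate 9)⁻¹) * (Equiv.swap (0 : Fin 9) 1 * Equiv.swap 1 2)
    decide)

/-- the elements in normal form -/
def nf (p : Fin 3 × Fin 3 × Fin 3 × Fin 3 × Fin 2) : Perm (Fin 9) :=
  (Equiv.swap (0 : Fin 9) 1 * Equiv.swap 1 2) ^ (p.1 : ℕ) *
  (Equiv.swap (3 : Fin 9) 4 * Equiv.swap 4 5) ^ (p.2.1 : ℕ) *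
  (Equiv.swap (6 : Fin 9) 7 * Equiv.swap 7 8) ^ (p.2.2.1 : ℕ) *
  (finRotate 9 * finRotate 9 * finRotate 9) ^ (p.2.2.2.1 : ℕ) *
  (Equiv.swap (3 : Fin 9) 6 * Equiv.swap 4 7 * Equiv.swap 5 8) ^ (p.2.2.2.2 : ℕ)

/-- block of a point -/
def blk (x : Fin 9) : Fin 3 := ⟨x.val / 3, by omega⟩

/-- offset of a point -/
def off (x : Fin 9) : Fin 3 := ⟨x.val % 3, by omega⟩

/-- offset of block `j` of the permutation -/
def offs (u v w : Fin 9) (j : Fin 3) : Fin 3 :=
  if blk u = j then off u else if blk v = j then off v else off w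

/-- decode from the images of `0, 3, 6` -/
def dec (u v w : Fin 9) : Fin 3 × Fin 3 × Fin 3 × Fin 3 × Fin 2 :=
  (offs u v w 0, offs u v w 1, offs u v w 2, blk u, if blk v = blk u + 1 then 0 else 1)

theorem dec_nf : ∀ p, dec (nf p 0) (nf p 3) (nf p 6) = p := by
  decide +kernel

theorem nf_injective : Function.Injective nf := by
  intro p q h
  rw [← dec_nf p, ← dec_nf q, h]

theorem closure_eq_top : Subgroup.closure ({e9, s9, t9} : Set C) = ⊤ := by
  set K := Subgroup.closure ({e9, s9, t9} : Set C) with hK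
  have he : e9 ∈ K := Subgroup.subset_closure (by simp)
  have hs : s9 ∈ K := Subgroup.subset_closure (by simp)
  have ht : t9 ∈ K := Subgroup.subset_closure (by simp)
  have h1 : ((s9 * e9 * s9⁻¹ : C) : Perm (Fin 9)) = Equiv.swap (3 : Fin 9) 4 * Equiv.swap 4 5 := by
    show (finRotate 9 * finRotate 9 * finRotate 9) * (Equiv.swap (0 : Fin 9) 1 * Equiv.swap 1 2) *
        (finRotate 9 * finRotate 9 * finRotate 9)⁻¹ = Equiv.swap (3 : Fin 9) 4 * Equiv.swap 4 5
    decide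
  have h2 : ((s9⁻¹ * e9 * s9 : C) : Perm (Fin 9)) = Equiv.swap (6 : Fin 9) 7 * Equiv.swap 7 8 := by
    show (finRotate 9 * finRotate 9 * finRotate 9)⁻¹ * (Equiv.swap (0 : Fin 9) 1 * Equiv.swap 1 2) *
        (finRotate 9 * finRotate 9 * finRotate 9) = Equiv.swap (6 : Fin 9) 7 * Equiv.swap 7 8
    decide
  have hmem : ∀ p, ∃ k : K, ((k : C) : Perm (Fin 9)) = nf p := by
    intro p
    refine ⟨⟨e9 ^ (p.1 : ℕ) * (s9 * e9 * s9⁻¹) ^ (p.2.1 : ℕ) * (s9⁻¹ * e9 * s9) ^ (p.2.2.1 : ℕ) *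
      s9 ^ (p.2.2.2.1 : ℕ) * t9 ^ (p.2.2.2.2 : ℕ), ?_⟩, ?_⟩
    · exact mul_mem (mul_mem (mul_mem (mul_mem (pow_mem he _) (pow_mem (mul_mem (mul_mem hs he)
        (inv_mem hs)) _)) (pow_mem (mul_mem (mul_mem (inv_mem hs) he) hs) _)) (pow_mem hs _))
        (pow_mem ht _)
    · show ((e9 ^ (p.1 : ℕ) * (s9 * e9 * s9⁻¹) ^ (p.2.1 : ℕ) * (s9⁻¹ * e9 * s9) ^ (p.2.2.1 : ℕ) *
        s9 ^ (p.2.2.2.1 : ℕ) * t9 ^ (p.2.2.2.2 : ℕ) : C) : Perm (Fin 9)) = nf p
      rw [Subgroup.coe_mul, Subgroup.coe_mul, Subgroup.coe_mul, Subgroup.coe_mul, Subgroup.coe_pow,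
        Subgroup.coe_pow, Subgroup.coe_pow, Subgroup.coe_pow, Subgroup.coe_pow, h1, h2]
      rfl
  choose k hk using hmem
  have hkinj : Function.Injective k := by
    intro p q h
    apply nf_injective
    rw [← hk p, ← hk q, h]
  have hle := Nat.card_le_card_of_injective k hkinj
  have h162 : Nat.card (Fin 3 × Fin 3 × Fin 3 × Fin 3 × Fin 2) = 162 := by simp
  rw [h162] at hle
  apply Subgroup.eq_top_of_card_eq
  apply le_antisymm
  · exact Subgroup.card_le_card_group K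
  · rw [card_C]; exact hle

theorem presented_C : Nonempty (PresentedGroup R ≃* C) :=
  presented_equiv (by rw [card_C]) rels9 closure_eq_top

end Cfsg.Agent.H352.CentSym9
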