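import Cfsg.Agent.H645.FT.Defs
import Cfsg.Agent.H794.SmallFix
import Cfsg.Agent.Lib.InvolutionKernel
import Mathlib.GroupTheory.FixedPointFree

/-!
# S4544, lemma F1 (helper352, plan of helper645)

An involution of a group of automorphisms of order `2 m`, `m` odd, of an abelian `2`-group acting as a transvection.
-/

set_option autoImplicit false
set_option linter.style.haveILetI false
set_option linter.unusedSectionVars false

namespace Cfsg.Agent.H352.FTF1

open Cfsg Cfsg.FusionSystem Cfsg.Agent.H645.FT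

section

variable {E : Type*} [CommGroup E]

/-- `v ↦ v⁻¹ δ v` -/
def dif (δ : MulAut E) : E →* E where
  toFun v := v⁻¹ * δ v
  map_one' := by simp
  map_mul' v w := by
    rw [map_mul, mul_inv]
    exact mul_mul_mul_comm _ _ _ _

theorem dif_apply (δ : MulAut E) (v : E) : dif δ v = v⁻¹ * δ v := rfl

theorem apply_eq (δ : MulAut E) (v : E) : δ v = v * dif δ v := by
  rw [dif_apply, mul_inv_cancel_left]

theorem dif_comm {δ ε : MulAut E} (h : δ * ε = ε * δ) (v : E) : ε (dif δ v) = dif δ (ε v) := by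
  rw [dif_apply, dif_apply, map_mul, map_inv]
  congr 1
  exact (congrArg (fun f : MulAut E => f v) h).symm

variable [Finite E]

theorem fix (h2 : IsPGroup 2 E) {δ : MulAut E} (hδ : ¬ 2 ∣ orderOf δ) {v : E} (h : δ (dif δ v) = dif δ v) :
    δ v = v :=
  Cfsg.Agent.H794.fix_of_fix_div h2 δ ((Nat.Prime.coprime_iff_not_dvd Nat.prime_two).2 hδ).symm v h

theorem eq_one_of (h2 : IsPGroup 2 E) {δ : MulAut E} (hδ : ¬ 2 ∣ orderOf δ) (h : ∀ v, δ (dif δ v) = dif δ v) :
    δ = 1 :=
  MulEquiv.ext fun v => fix h2 hδ (h v)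

/-- an automorphism of odd order with `[E, δ]` of order at most `2` is trivial -/
theorem triv_of_two (h2 : IsPGroup 2 E) {δ : MulAut E} (hδ : ¬ 2 ∣ orderOf δ) {c : E} (hc : c * c = 1)
    (h : ∀ v, dif δ v = 1 ∨ dif δ v = c) : δ = 1 := by
  have hcc : δ c = c := by
    rcases h c with h1 | h1
    · rw [apply_eq, h1, mul_one]
    · have h3 : δ c = 1 := by rw [apply_eq, h1, hc]
      have h4 : c = 1 := by simpa using h3
      rw [h4, map_one]
  refine eq_one_of h2 hδ fun v => ?_
  rcases h v with h1 | h1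
  · rw [h1, map_one]
  · rw [h1, hcc]

/-- `[E, δ]` for a product `δ` of two transvections -/
theorem range_eq (h2 : IsPGroup 2 E) {δ : MulAut E} (hδ : ¬ 2 ∣ orderOf δ) (hδ1 : δ ≠ 1) {d d' : E}
    (hd : d * d = 1) (hd' : d' * d' = 1)
    (h : ∀ v, dif δ v = 1 ∨ dif δ v = d ∨ dif δ v = d' ∨ dif δ v = d * d') :
    Nat.card (dif δ).range = 4 ∧ (∀ x, x ∈ (dif δ).range ↔ x = 1 ∨ x = d ∨ x = d' ∨ x = d * d') ∧ δ d ≠ d := by
  classical
  have hsub : ((dif δ).range : Set E) ⊆ (({1, d, d', d * d'} : Finset E) : Set E) := by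
    rintro _ ⟨v, rfl⟩
    simpa using h v
  have hdd : (d * d') * (d * d') = 1 := by rw [mul_mul_mul_comm, hd, hd', mul_one]
  have hle : Nat.card (dif δ).range ≤ 4 := by
    have h3 := Set.ncard_le_ncard hsub (Finset.finite_toSet _)
    rw [Set.ncard_coe_finset] at h3
    exact h3.trans Finset.card_le_four
  have h4 : Nat.card (dif δ).range = 4 := by
    obtain ⟨k, hk⟩ := IsPGroup.iff_card.1 (h2.to_subgroup (dif δ).range)
    haveI : Fact (Nat.Prime 2) := ⟨Nat.prime_two⟩
    have hk1 : ¬ k ≤ 1 := by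
      intro hk1
      have h5 : Nat.card (dif δ).range ≤ 2 := by
        rw [hk]
        calc 2 ^ k ≤ 2 ^ 1 := Nat.pow_le_pow_right (by norm_num) hk1
          _ = 2 := rfl
      -- all elements are `1` or `c`
      obtain ⟨c, hc, hc'⟩ : ∃ c : E, c * c = 1 ∧ ∀ v, dif δ v = 1 ∨ dif δ v = c := by
        by_cases hall : ∀ v, dif δ v = 1
        · exact ⟨1, one_mul 1, fun v => Or.inl (hall v)⟩
        · push Not at hall
          obtain ⟨w, hw⟩ := hall
          refine ⟨dif δ w, ?_, fun v => ?_⟩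
          · rcases h w with h6 | h6 | h6 | h6
            · exact absurd h6 hw
            · rw [h6, hd]
            · rw [h6, hd']
            · rw [h6, hdd]
          · by_contra hcon
            push Not at hcon
            have h6 : ({1, dif δ w, dif δ v} : Finset E).card = 3 := by
              rw [Finset.card_insert_of_notMem, Finset.card_insert_of_notMem, Finset.card_singleton]
              · rw [Finset.mem_singleton]
                exact fun h => hcon.2 h.symm
              · rw [Finset.mem_insert, Finset.mem_singleton]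
                rintro (h | h)
                · exact hw h.symm
                · exact hcon.1 h.symm
            have h7 : (({1, dif δ w, dif δ v} : Finset E) : Set E) ⊆ ((dif δ).range : Set E) := by
              intro x hx
              simp only [Finset.coe_insert, Finset.coe_singleton, Set.mem_insert_iff, Set.mem_singleton_iff] at hx
              rcases hx with rfl | rfl | rfl
              · exact one_mem _
              · exact ⟨w, rfl⟩
              · exact ⟨v, rfl⟩
            have h8 := Set.ncard_le_ncard h7 (Set.toFinite _)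
            rw [Set.ncard_coe_finset, h6] at h8
            have h9 : Set.ncard ((dif δ).range : Set E) = Nat.card (dif δ).range := rfl
            omega
      exact hδ1 (triv_of_two h2 hδ hc hc')
    have hk2 : k ≤ 2 := by
      by_contra hk3
      have : 2 ^ 3 ≤ 2 ^ k := Nat.pow_le_pow_right (by norm_num) (by omega)
      omega
    have : k = 2 := by omega
    rw [hk, this]
    norm_num
  have hmem : ∀ x, x ∈ (dif δ).range ↔ x = 1 ∨ x = d ∨ x = d' ∨ x = d * d' := by
    intro x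
    have h5 : ((dif δ).range : Set E) = (({1, d, d', d * d'} : Finset E) : Set E) := by
      refine Set.eq_of_subset_of_ncard_le hsub ?_ (Finset.finite_toSet _)
      rw [Set.ncard_coe_finset]
      exact Finset.card_le_four.trans h4.ge
    have h6 : x ∈ ((dif δ).range : Set E) ↔ x ∈ (({1, d, d', d * d'} : Finset E) : Set E) := by rw [h5]
    simpa using h6
  refine ⟨h4, hmem, fun hdf => hδ1 ?_⟩
  have hdf' : δ d' = d' := by
    have h5 := (hmem (dif δ d')).1 ⟨d', rfl⟩
    rcases h5 with h5 | h5 | h5 | h5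
    · rw [apply_eq, h5, mul_one]
    · exact fix h2 hδ (by rw [h5, hdf])
    · have h6 : δ d' = 1 := by rw [apply_eq, h5, hd']
      have h7 : d' = 1 := by simpa using h6
      rw [h7, map_one]
    · have h6 : δ d' = δ d := by rw [apply_eq, h5, hdf, mul_comm d d', ← mul_assoc, hd', one_mul]
      rw [δ.injective h6, hdf]
  refine eq_one_of h2 hδ fun v => ?_
  rcases h v with h5 | h5 | h5 | h5
  · rw [h5, map_one]
  · rw [h5, hdf]
  · rw [h5, hdf']
  · rw [h5, map_mul, hdf, hdf']

theorem range_same {δ ε : MulAut E} (hc : δ * ε = ε * δ) {d : E} (hd : d * d = 1) (h1 : Nat.card (dif δ).range = 4)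
    (h2 : Nat.card (dif ε).range = 4) (hd1 : d ∈ (dif δ).range) (hd2 : d ∈ (dif ε).range) (hne : ε d ≠ d) :
    (dif ε).range = (dif δ).range := by
  classical
  have hd0 : d ≠ 1 := fun h => hne (by rw [h, map_one])
  have hx1 : dif ε d ∈ (dif δ).range := by
    rw [dif_apply]
    refine mul_mem (inv_mem hd1) ?_
    obtain ⟨w, hw⟩ := hd1
    exact ⟨ε w, by rw [← dif_comm hc, hw]⟩
  have hx0 : dif ε d ≠ 1 := fun h => hne (by rw [apply_eq, h, mul_one])
  have hxd : dif ε d ≠ d := fun h => hd0 (by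
    have h3 : ε d = 1 := by rw [apply_eq, h, hd]
    simpa using h3)
  have h3 : ({1, d, dif ε d} : Finset E).card = 3 := by
    rw [Finset.card_insert_of_notMem, Finset.card_insert_of_notMem, Finset.card_singleton]
    · rw [Finset.mem_singleton]
      exact fun h => hxd h.symm
    · rw [Finset.mem_insert, Finset.mem_singleton]
      rintro (h | h)
      · exact hd0 h.symm
      · exact hx0 h.symm
  have h5 : (({1, d, dif ε d} : Finset E) : Set E) ⊆ (((dif δ).range ⊓ (dif ε).range : Subgroup E) : Set E) := by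
    intro x hx
    simp only [Finset.coe_insert, Finset.coe_singleton, Set.mem_insert_iff, Set.mem_singleton_iff] at hx
    rcases hx with rfl | rfl | rfl
    · exact one_mem _
    · exact ⟨hd1, hd2⟩
    · exact ⟨hx1, ⟨d, rfl⟩⟩
  have h6 := Set.ncard_le_ncard h5 (Set.toFinite _)
  rw [Set.ncard_coe_finset, h3] at h6
  have h7 : 3 ≤ Nat.card ((dif δ).range ⊓ (dif ε).range : Subgroup E) := h6
  have h8 : Nat.card ((dif δ).range ⊓ (dif ε).range : Subgroup E) ∣ 4 := h1 ▸ Subgroup.card_dvd_of_le inf_le_left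
  have h9 : Nat.card ((dif δ).range ⊓ (dif ε).range : Subgroup E) = 4 := by
    have h10 := Nat.le_of_dvd (by norm_num) h8
    have h11 : Nat.card ((dif δ).range ⊓ (dif ε).range : Subgroup E) ≠ 3 := by
      intro h
      rw [h] at h8
      omega
    omega
  have e1 : (dif δ).range ⊓ (dif ε).range = (dif δ).range :=
    Subgroup.eq_of_le_of_card_ge inf_le_left (by rw [h9, h1])
  have e2 : (dif δ).range ⊓ (dif ε).range = (dif ε).range :=
    Subgroup.eq_of_le_of_card_ge inf_le_right (by rw [h9, h2])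
  rw [← e1, e2]

theorem main (h2 : IsPGroup 2 E) (O : Subgroup (MulAut E)) {τ : MulAut E} (hτ : τ ∈ O) (hττ : τ * τ = 1)
    (h4 : ¬ 4 ∣ Nat.card O) (Z : Subgroup E) (hZ : Z.index = 2) (hτZ : ∀ v, τ v = v ↔ v ∈ Z)
    {d : E} (hd : ∀ v, v ∉ Z → τ v = v * d)
    (hfix : ∀ v ∈ Z, ∀ w ∈ Z, v * v = 1 → w * w = 1 → v ≠ 1 → v ≠ d → w ≠ 1 → w ≠ d →
      w = v ∨ w = v * d)
    (hex : ∃ α ∈ O, ¬ 2 ∣ orderOf α ∧ α ≠ 1) :
    ∃ K : Subgroup E, Nat.card K = 4 ∧ d ∈ K ∧ (∀ v ∈ K, v * v = 1) ∧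
      ∀ α ∈ O, ¬ 2 ∣ orderOf α → (∀ v, v⁻¹ * α v ∈ K) ∧
        (α ≠ 1 → (∀ v, α v = v → v ∈ Z) ∧ α d ≠ d ∧ ∀ k ∈ K, ∃ v, v⁻¹ * α v = k) := by
  have hττ' : ∀ v, τ (τ v) = v := fun v => congrArg (fun f : MulAut E => f v) hττ
  obtain ⟨v0, hv0⟩ : ∃ v, v ∉ Z := by
    by_contra hcon
    push Not at hcon
    have : Z = ⊤ := (Subgroup.eq_top_iff' Z).2 hcon
    rw [this, Subgroup.index_top] at hZ
    omega
  have hdτ : d * τ d = 1 := by
    have h3 := hττ' v0
    rw [hd v0 hv0, map_mul, hd v0 hv0, mul_assoc] at h3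
    exact mul_eq_left.1 h3
  have hdZ : d ∈ Z := by
    by_contra hcon
    rw [hd d hcon] at hdτ
    have h3 : d ^ 3 = 1 := by rw [← hdτ, pow_succ, pow_two, mul_assoc]
    obtain ⟨k, hk⟩ := h2 d
    have h5 : orderOf d ∣ 3 := orderOf_dvd_of_pow_eq_one h3
    have h6 : orderOf d ∣ 2 ^ k := orderOf_dvd_of_pow_eq_one hk
    have h7 : Nat.Coprime 3 (2 ^ k) := Nat.Coprime.pow_right k (by norm_num)
    have h8 := Nat.eq_one_of_dvd_coprimes h7 h5 h6
    rw [orderOf_eq_one_iff] at h8
    exact hcon (h8 ▸ one_mem Z)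
  have hdd : d * d = 1 := by rwa [(hτZ d).2 hdZ] at hdτ
  have hd1 : d ≠ 1 := fun h => hv0 ((hτZ v0).1 (by rw [hd v0 hv0, h, mul_one]))
  have hτ1 : τ ≠ 1 := fun h => hv0 ((hτZ v0).1 (by rw [h]; rfl))
  have hτv : ∀ v, τ v = v ∨ τ v = v * d := fun v => by
    by_cases hv : v ∈ Z
    · exact Or.inl ((hτZ v).2 hv)
    · exact Or.inr (hd v hv)
  -- (i)
  have hcomm : ∀ α : MulAut E, ¬ 2 ∣ orderOf α → α * τ = τ * α → α = 1 := by
    intro α hα hc
    have hc' : ∀ v, α (τ v) = τ (α v) := fun v => congrArg (fun f : MulAut E => f v) hc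
    have hαZ : ∀ v, α v ∈ Z ↔ v ∈ Z := by
      intro v
      rw [← hτZ, ← hτZ, ← hc']
      exact α.injective.eq_iff
    have hαd : α d = d := by
      have h3 := hc' v0
      rw [hd v0 hv0, hd (α v0) (fun h => hv0 ((hαZ v0).1 h)), map_mul] at h3
      exact mul_left_cancel h3
    have hinv : ∀ v ∈ Z, v * v = 1 → α v = v := by
      intro v hv hvv
      by_cases hv1 : v = 1
      · rw [hv1, map_one]
      by_cases hvd : v = d
      · rw [hvd, hαd]
      have h3 := hfix v hv (α v) ((hαZ v).2 hv) hvv (by rw [← map_mul, hvv, map_one]) hv1 hvd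
        (fun h => hv1 (by simpa using h)) (fun h => hvd (α.injective (h.trans hαd.symm)))
      rcases h3 with h3 | h3
      · exact h3
      · refine fix h2 hα ?_
        rw [dif_apply, h3, inv_mul_cancel_left, hαd]
    have hZfix : ∀ n : ℕ, ∀ v ∈ Z, v ^ 2 ^ n = 1 → α v = v := by
      intro n
      induction n with
      | zero =>
        intro v _ h
        rw [pow_zero, pow_one] at h
        rw [h, map_one]
      | succ n ih =>
        intro v hv h
        have h3 : α (v * v) = v * v := ih (v * v) (mul_mem hv hv) (by rw [← pow_two, ← pow_mul, ← pow_succ']; exact h)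
        refine fix h2 hα (hinv _ ?_ ?_)
        · rw [dif_apply]
          exact mul_mem (inv_mem hv) ((hαZ v).2 hv)
        · rw [← map_mul, dif_apply, h3, inv_mul_cancel]
    refine eq_one_of h2 hα fun v => ?_
    obtain ⟨n, hn⟩ := h2 (dif α v)
    refine hZfix n _ ?_ hn
    rw [dif_apply, Subgroup.mul_mem_iff_of_index_two hZ, inv_mem_iff, hαZ]
  -- (ii)
  obtain ⟨N, hNn, hNodd, hN2, hNmem⟩ := Cfsg.Agent.Lib.InvolutionKernel.exists_odd_index_two
    (t := (⟨τ, hτ⟩ : O)) (Subtype.ext hττ) (fun h => hτ1 (congrArg Subtype.val h))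
    (fun h => h4 (h.trans (Subgroup.card_subgroup_dvd_card _)))
  have hodd : ∀ α : O, α ∈ N ↔ ¬ 2 ∣ orderOf (α : MulAut E) := by
    intro α
    rw [hNmem, ← Subgroup.orderOf_coe, Nat.odd_iff, Nat.two_dvd_ne_zero]
  let φ : MulAut N := MulAut.conjNormal (H := N) (⟨τ, hτ⟩ : O)
  have hφ : ∀ g : N, (((φ g : N) : O) : MulAut E) = τ * ((g : O) : MulAut E) * τ := by
    intro g
    have h3 : (((φ g : N) : O) : MulAut E) = τ * ((g : O) : MulAut E) * τ⁻¹ := rfl
    rw [h3, eq_comm]
    congr 1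
    exact eq_inv_of_mul_eq_one_left hττ
  have hff : MonoidHom.FixedPointFree φ := by
    intro g hg
    have h3 := hφ g
    rw [hg] at h3
    have h5 := hcomm ((g : O) : MulAut E) ((hodd g).1 g.2) (by
      conv_lhs => rw [h3]
      rw [mul_assoc, hττ, mul_one])
    exact Subtype.ext (Subtype.ext h5)
  have hinvo : Function.Involutive φ := by
    intro g
    apply Subtype.ext
    apply Subtype.ext
    rw [hφ, hφ]
    calc τ * (τ * ((g : O) : MulAut E) * τ) * τ = (τ * τ) * ((g : O) : MulAut E) * (τ * τ) := by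
          simp only [mul_assoc]
      _ = ((g : O) : MulAut E) := by rw [hττ, one_mul, mul_one]
  have hinv : ∀ g : N, φ g = g⁻¹ := fun g => congrFun (hff.coe_eq_inv_of_involutive hinvo) g
  have hNab : ∀ a b : N, a * b = b * a := fun a b => hff.commute_all_of_involutive hinvo a b
  -- (iii)
  have key : ∀ δ : N, δ ≠ 1 → Nat.card (dif ((δ : O) : MulAut E)).range = 4 ∧
      d ∈ (dif ((δ : O) : MulAut E)).range ∧ (∀ x ∈ (dif ((δ : O) : MulAut E)).range, x * x = 1) ∧
      ((δ : O) : MulAut E) d ≠ d := by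
    intro δ hδ
    obtain ⟨g, hg⟩ := hff.commutatorMap_surjective δ
    have h3 : (((δ : O) : MulAut E)) * (τ * ((g : O) : MulAut E) * τ) = ((g : O) : MulAut E) := by
      have h5 : δ * φ g = g := by rw [← hg]; exact div_mul_cancel g (φ g)
      have h6 := congrArg (fun x : N => ((x : O) : MulAut E)) h5
      simp only [Subgroup.coe_mul] at h6
      rwa [hφ] at h6
    have h6 : ∀ v, ((δ : O) : MulAut E) v =
        ((g : O) : MulAut E) (τ (((g : O) : MulAut E)⁻¹ (τ v))) := by
      intro v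
      have h7 := congrArg (fun f : MulAut E => f (τ (((g : O) : MulAut E)⁻¹ (τ v)))) h3
      simp only [MulAut.mul_apply] at h7
      rw [← h7, hττ', MulAut.apply_inv_self, hττ']
    have h7 : ∀ w, ((g : O) : MulAut E) (τ (((g : O) : MulAut E)⁻¹ w)) = w ∨
        ((g : O) : MulAut E) (τ (((g : O) : MulAut E)⁻¹ w)) = w * ((g : O) : MulAut E) d := by
      intro w
      rcases hτv (((g : O) : MulAut E)⁻¹ w) with h8 | h8
      · left
        rw [h8, MulAut.apply_inv_self]
      · right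
        rw [h8, map_mul, MulAut.apply_inv_self]
    have h8 : ∀ v, dif ((δ : O) : MulAut E) v = 1 ∨ dif ((δ : O) : MulAut E) v = d ∨
        dif ((δ : O) : MulAut E) v = ((g : O) : MulAut E) d ∨
        dif ((δ : O) : MulAut E) v = d * ((g : O) : MulAut E) d := by
      intro v
      rw [dif_apply, h6]
      rcases hτv v with h9 | h9
      · rw [h9]
        rcases h7 v with h10 | h10
        · left; rw [h10, inv_mul_cancel]
        · right; right; left; rw [h10, inv_mul_cancel_left]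
      · rw [h9]
        rcases h7 (v * d) with h10 | h10
        · right; left; rw [h10, inv_mul_cancel_left]
        · right; right; right; rw [h10, mul_assoc, inv_mul_cancel_left]
    have hgd : ((g : O) : MulAut E) d * ((g : O) : MulAut E) d = 1 := by rw [← map_mul, hdd, map_one]
    obtain ⟨k1, k2, k3⟩ := range_eq h2 ((hodd δ).1 δ.2)
      (fun h => hδ (Subtype.ext (Subtype.ext h))) hdd hgd h8
    refine ⟨k1, (k2 d).2 (Or.inr (Or.inl rfl)), fun x hx => ?_, k3⟩
    rcases (k2 x).1 hx with rfl | rfl | rfl | rfl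
    · exact one_mul 1
    · exact hdd
    · exact hgd
    · rw [mul_mul_mul_comm, hdd, hgd, mul_one]
  -- the result
  obtain ⟨α0, hα0, hα0o, hα01⟩ := hex
  let δ0 : N := ⟨⟨α0, hα0⟩, (hodd ⟨α0, hα0⟩).2 hα0o⟩
  have hδ0 : δ0 ≠ 1 := fun h => hα01 (congrArg (fun x : N => ((x : O) : MulAut E)) h)
  obtain ⟨k1, k2, k3, k4⟩ := key δ0 hδ0
  refine ⟨(dif ((δ0 : O) : MulAut E)).range, k1, k2, k3, fun α hα hαo => ?_⟩
  let δ : N := ⟨⟨α, hα⟩, (hodd ⟨α, hα⟩).2 hαo⟩
  by_cases hα1 : α = 1
  · subst hα1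
    refine ⟨fun v => ?_, fun h => absurd rfl h⟩
    rw [MulAut.one_apply, inv_mul_cancel]
    exact one_mem _
  have hδ : δ ≠ 1 := fun h => hα1 (congrArg (fun x : N => ((x : O) : MulAut E)) h)
  obtain ⟨l1, l2, l3, l4⟩ := key δ hδ
  have hcm : ((δ0 : O) : MulAut E) * ((δ : O) : MulAut E) = ((δ : O) : MulAut E) * ((δ0 : O) : MulAut E) :=
    congrArg (fun x : N => ((x : O) : MulAut E)) (hNab δ0 δ)
  have hr := range_same hcm hdd k1 l1 k2 l2 l4
  rw [← hr]
  refine ⟨fun v => ⟨v, rfl⟩, fun _ => ⟨fun v hv => ?_, l4, fun k hk => hk⟩⟩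
  by_contra hvZ
  -- `α` fixes `τ v`
  have h3 := hφ δ⁻¹
  rw [hinv, inv_inv] at h3
  have h5 : α * τ = τ * α⁻¹ := by
    have h6 : α = τ * α⁻¹ * τ := h3
    calc α * τ = τ * α⁻¹ * τ * τ := by rw [← h6]
      _ = τ * α⁻¹ := by rw [mul_assoc, hττ, mul_one]
  have h6 : α⁻¹ v = v := by
    conv_lhs => rw [← hv]
    exact MulAut.inv_apply_self _ α v
  have h7 : α (τ v) = τ v := by
    have h8 := congrArg (fun f : MulAut E => f v) h5
    simp only [MulAut.mul_apply] at h8
    rw [h8, h6]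
  rw [hd v hvZ, map_mul, hv] at h7
  exact l4 (mul_left_cancel h7)

end

theorem exists_klein {E : Type*} [Group E] [Finite E] (h2 : IsPGroup 2 E) (hab : ∀ a b : E, a * b = b * a)
    (O : Subgroup (MulAut E)) {τ : MulAut E} (hτ : τ ∈ O) (hττ : τ * τ = 1)
    (h4 : ¬ 4 ∣ Nat.card O) (Z : Subgroup E) (hZ : Z.index = 2) (hτZ : ∀ v, τ v = v ↔ v ∈ Z)
    {d : E} (hd : ∀ v, v ∉ Z → τ v = v * d)
    (hfix : ∀ v ∈ Z, ∀ w ∈ Z, v * v = 1 → w * w = 1 → v ≠ 1 → v ≠ d → w ≠ 1 → w ≠ d →
      w = v ∨ w = v * d)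
    (hex : ∃ α ∈ O, ¬ 2 ∣ orderOf α ∧ α ≠ 1) :
    ∃ K : Subgroup E, Nat.card K = 4 ∧ d ∈ K ∧ (∀ v ∈ K, v * v = 1) ∧
      ∀ α ∈ O, ¬ 2 ∣ orderOf α → (∀ v, v⁻¹ * α v ∈ K) ∧
        (α ≠ 1 → (∀ v, α v = v → v ∈ Z) ∧ α d ≠ d ∧ ∀ k ∈ K, ∃ v, v⁻¹ * α v = k) :=
  @main E { (inferInstance : Group E) with mul_comm := hab } _ h2 O τ hτ hττ h4 Z hZ hτZ d hd hfix hex

end Cfsg.Agent.H352.FTF1
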