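import Cfsg.Agent.H645.FT.Defs

/-!
# S4544, lemma G1 (helper352, plan of helper645)
-/

set_option autoImplicit false

namespace Cfsg.Agent.H352.FTG1

open Cfsg Cfsg.FusionSystem Cfsg.Agent.H645.FT

theorem aux {V : Type*} [CommGroup V] [Fintype V] (σ : V → ℕ) (z : V)
    (h : ∀ l : V →* ℂˣ, l z ≠ 1 → ∑ v : V, ((l v : ℂˣ) : ℂ) * σ v = 0) : σ z = σ 1 := by
  classical
  obtain ⟨e⟩ := CommGroup.monoidHom_mulEquiv_of_hasEnoughRootsOfUnity V ℂ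
  have hfin : Finite (V →* ℂˣ) := Finite.of_equiv V e.symm.toEquiv
  let fin : Fintype (V →* ℂˣ) := Fintype.ofFinite _
  have h0 : ∀ g : V, g ≠ 1 → ∑ l : V →* ℂˣ, ((l g : ℂˣ) : ℂ) = 0 := by
    intro g hg
    obtain ⟨φ, hφ⟩ := CommGroup.exists_apply_ne_one_of_hasEnoughRootsOfUnity V ℂ hg
    have h1 : ∑ l : V →* ℂˣ, (((φ * l) g : ℂˣ) : ℂ) = ∑ l : V →* ℂˣ, ((l g : ℂˣ) : ℂ) :=
      Equiv.sum_comp (Equiv.mulLeft φ) fun l : V →* ℂˣ => ((l g : ℂˣ) : ℂ)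
    simp only [MonoidHom.mul_apply, Units.val_mul, ← Finset.mul_sum] at h1
    have h2 : (((φ g : ℂˣ) : ℂ) - 1) * ∑ l : V →* ℂˣ, ((l g : ℂˣ) : ℂ) = 0 := by
      rw [sub_mul, h1, one_mul, sub_self]
    rcases mul_eq_zero.1 h2 with h3 | h3
    · exact absurd (Units.ext (sub_eq_zero.1 h3)) hφ
    · exact h3
  have h1 : ∀ y : V, ∑ l : V →* ℂˣ, (((l y)⁻¹ : ℂˣ) : ℂ) * ∑ v : V, ((l v : ℂˣ) : ℂ) * σ v =
      (Fintype.card (V →* ℂˣ) : ℂ) * σ y := by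
    intro y
    have h2 : ∀ l : V →* ℂˣ, (((l y)⁻¹ : ℂˣ) : ℂ) * ∑ v : V, ((l v : ℂˣ) : ℂ) * σ v =
        ∑ v : V, ((l (y⁻¹ * v) : ℂˣ) : ℂ) * σ v := by
      intro l
      rw [Finset.mul_sum]
      refine Finset.sum_congr rfl fun v _ => ?_
      rw [map_mul, map_inv, Units.val_mul, mul_assoc]
    simp only [h2]
    rw [Finset.sum_comm]
    simp only [← Finset.sum_mul]
    rw [Finset.sum_eq_single y]
    · rw [inv_mul_cancel]
      simp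
    · intro v _ hv
      rw [h0 _ (fun h3 => hv (inv_mul_eq_one.1 h3).symm), zero_mul]
    · intro h3
      exact absurd (Finset.mem_univ y) h3
  have h2 : ∑ l : V →* ℂˣ, (((l z)⁻¹ : ℂˣ) : ℂ) * ∑ v : V, ((l v : ℂˣ) : ℂ) * σ v =
      ∑ l : V →* ℂˣ, (((l 1)⁻¹ : ℂˣ) : ℂ) * ∑ v : V, ((l v : ℂˣ) : ℂ) * σ v := by
    refine Finset.sum_congr rfl fun l _ => ?_
    by_cases hl : l z = 1
    · rw [hl, map_one]
    · rw [h l hl, mul_zero, mul_zero]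
  rw [h1, h1] at h2
  have h3 : (Fintype.card (V →* ℂˣ) : ℂ) ≠ 0 := Nat.cast_ne_zero.2 Fintype.card_ne_zero
  exact Nat.cast_injective (mul_left_cancel₀ h3 h2)

theorem eq_of_trace {V : Type*} [Group V] [Finite V] (hab : ∀ a b : V, a * b = b * a) [Fintype V]
    (σ : V → ℕ) (z : V)
    (h : ∀ l : V →* ℂˣ, l z ≠ 1 → ∑ v : V, ((l v : ℂˣ) : ℂ) * σ v = 0) : σ z = σ 1 :=
  @aux V { (inferInstance : Group V) with mul_comm := hab } _ σ z h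

end Cfsg.Agent.H352.FTG1
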