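import Cfsg.Agent.H645.FT.Defs
import Cfsg.Agent.Classification.NormalCyclic
import Cfsg.Agent.TwoFusion.NoNormalFour
import Cfsg.Agent.H777.PGrp

/-!
# S4544, lemma Red (helper352, plan of helper645)

Finite `2`-groups with a cyclic subgroup of index at most `4`.
-/

set_option autoImplicit false
set_option linter.style.haveILetI false

namespace Cfsg.Agent.H352.FTRed

open Cfsg Cfsg.FusionSystem Cfsg.Agent.H645.FT

section

variable {D : Type*} [Group D]

/-- the involutions of a cyclic group -/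
theorem inv_unique [Finite D] {c a b : D} (ha : a ∈ Subgroup.zpowers c) (hb : b ∈ Subgroup.zpowers c)
    (ha1 : a ≠ 1) (hb1 : b ≠ 1) (haa : a * a = 1) (hbb : b * b = 1) : a = b := by
  classical
  haveI : Fintype (Subgroup.zpowers c) := Fintype.ofFinite _
  by_contra hab
  have h1 := IsCyclic.card_pow_eq_one_le (α := Subgroup.zpowers c) (n := 2) (by norm_num)
  have h2 : ({1, ⟨a, ha⟩, ⟨b, hb⟩} : Finset (Subgroup.zpowers c)) ⊆ Finset.univ.filter fun x => x ^ 2 = 1 := by
    intro x hx
    simp only [Finset.mem_insert, Finset.mem_singleton] at hx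
    rw [Finset.mem_filter]
    refine ⟨Finset.mem_univ _, ?_⟩
    rcases hx with rfl | rfl | rfl
    · exact one_pow _
    · exact Subtype.ext (by rw [pow_two]; exact haa)
    · exact Subtype.ext (by rw [pow_two]; exact hbb)
  have h3 : ({1, ⟨a, ha⟩, ⟨b, hb⟩} : Finset (Subgroup.zpowers c)).card = 3 := by
    rw [Finset.card_insert_of_notMem, Finset.card_insert_of_notMem, Finset.card_singleton]
    · rw [Finset.mem_singleton]
      exact fun h => hab (congrArg Subtype.val h)
    · rw [Finset.mem_insert, Finset.mem_singleton]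
      rintro (h | h)
      · exact ha1 (congrArg Subtype.val h).symm
      · exact hb1 (congrArg Subtype.val h).symm
  have h4 := Finset.card_le_card h2
  omega

theorem index_sup_le [Finite D] {A B : Subgroup D} (h : ¬ B ≤ A) (hA : A.index ≤ 4) : (A ⊔ B).index ≤ 2 := by
  have h1 : A.relIndex (A ⊔ B) * (A ⊔ B).index = A.index := Subgroup.relIndex_mul_index le_sup_left
  have h2 : A.relIndex (A ⊔ B) ≠ 1 := fun h2 => h ((sup_le_iff.1 (Subgroup.relIndex_eq_one.1 h2)).2)
  have h3 : A.relIndex (A ⊔ B) ≠ 0 := Subgroup.index_ne_zero_of_finite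
  have h4 : 2 ≤ A.relIndex (A ⊔ B) := by omega
  have h5 := Nat.mul_le_mul_right (A ⊔ B).index h4
  omega

theorem mem_centralizer_iff' {c x : D} : x ∈ Subgroup.centralizer ({c} : Set D) ↔ c * x = x * c := by
  rw [Subgroup.mem_centralizer_iff]
  simp

/-- If all commutators are `1` or `z`, centralizers have index at most `2`. -/
theorem index_centralizer_le [Finite D] {z c : D} (h : ∀ g h : D, g * h * g⁻¹ * h⁻¹ = 1 ∨ g * h * g⁻¹ * h⁻¹ = z) :
    (Subgroup.centralizer ({c} : Set D)).index ≤ 2 := by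
  by_cases hc : ∀ x, c * x = x * c
  · have : Subgroup.centralizer ({c} : Set D) = ⊤ := by
      rw [eq_top_iff]
      exact fun x _ => mem_centralizer_iff'.2 (hc x)
    rw [this, Subgroup.index_top]
    norm_num
  · push Not at hc
    obtain ⟨a, ha⟩ := hc
    have key : ∀ x, x ∉ Subgroup.centralizer ({c} : Set D) → x * c * x⁻¹ = z * c := by
      intro x hx
      rcases h x c with h1 | h1
      · exact absurd (mem_centralizer_iff'.2 (mul_inv_eq_iff_eq_mul.1 (mul_inv_eq_one.1 h1)).symm) hx
      · exact mul_inv_eq_iff_eq_mul.1 h1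
    have h2 : (Subgroup.centralizer ({c} : Set D)).index = 2 := by
      rw [Subgroup.index_eq_two_iff]
      refine ⟨a, fun b => ?_⟩
      by_cases hb : b ∈ Subgroup.centralizer ({c} : Set D)
      · right
        refine ⟨hb, fun h3 => ha (mem_centralizer_iff'.1 ?_)⟩
        have := mul_mem (inv_mem hb) h3
        rwa [inv_mul_cancel_left] at this
      · left
        refine ⟨?_, hb⟩
        have h3 := key b⁻¹ fun h => hb (inv_inv b ▸ inv_mem h)
        have h4 := key a fun h => ha (mem_centralizer_iff'.1 h)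
        rw [inv_inv] at h3
        rw [mem_centralizer_iff']
        calc c * (b * a) = b * (b⁻¹ * c * b) * a := by group
          _ = b * (a * c * a⁻¹) * a := by rw [h3, h4]
          _ = b * a * c := by group
    omega

theorem mem_zpowers_sq {z x : D} (hz : z * z = 1) : x ∈ Subgroup.zpowers z ↔ x = 1 ∨ x = z := by
  constructor
  · intro h
    obtain ⟨k, rfl⟩ := Subgroup.mem_zpowers_iff.1 h
    rcases Int.even_or_odd k with ⟨m, rfl⟩ | ⟨m, rfl⟩
    · left
      rw [← two_mul, zpow_mul, zpow_two, hz, one_zpow]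
    · right
      rw [zpow_add, zpow_mul, zpow_two, hz, one_zpow, one_mul, zpow_one]
  · rintro (rfl | rfl)
    · exact one_mem _
    · exact Subgroup.mem_zpowers _

end

theorem cases {D : Type*} [Group D] [Finite D] (h2 : IsPGroup 2 D) (c : D)
    (hidx : (Subgroup.zpowers c).index ≤ 4) :
    (∃ z ∈ Subgroup.center D, ∃ x : D, (Subgroup.zpowers x ⊔ Subgroup.zpowers z).index ≤ 2) ∨
    (∃ z ∈ Subgroup.center D, (Subgroup.zpowers z).index ≤ 4) ∨
    ((Subgroup.zpowers c).index = 4 ∧ 8 ≤ orderOf c ∧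
      Subgroup.center D ≤ Subgroup.zpowers c ∧ ∃ z ∈ Subgroup.center D, z ≠ 1 ∧ z * z = 1 ∧
      (∃ e : D, e ∉ Subgroup.zpowers c ∧ e * e = 1 ∧ ∀ g, g * e * g⁻¹ = e ∨ g * e * g⁻¹ = z * e) ∧
      ∃ g h : D, g * h * g⁻¹ * h⁻¹ ∉ Subgroup.zpowers z) := by
  haveI : Fact (Nat.Prime 2) := ⟨Nat.prime_two⟩
  -- a central element outside `⟨c⟩`
  by_cases hA : Subgroup.center D ≤ Subgroup.zpowers c
  swap
  · left
    obtain ⟨z, hz, hzc⟩ := Set.not_subset.1 hA
    exact ⟨z, hz, c, index_sup_le (fun h => hzc (h (Subgroup.mem_zpowers z))) hidx⟩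
  have hone : ∀ x : D, (Subgroup.zpowers x).index ≤ 2 →
      ∃ z ∈ Subgroup.center D, ∃ x : D, (Subgroup.zpowers x ⊔ Subgroup.zpowers z).index ≤ 2 := fun x hx =>
    ⟨1, one_mem _, x, by rwa [Subgroup.zpowers_one_eq_bot, sup_bot_eq]⟩
  by_cases hB : (Subgroup.zpowers c).index ≤ 2
  · exact Or.inl (hone c hB)
  by_cases hC : c ∈ Subgroup.center D
  · exact Or.inr (Or.inl ⟨c, hC, hidx⟩)
  have h4 : (Subgroup.zpowers c).index = 4 := by
    obtain ⟨k, hk⟩ := h2.index (Subgroup.zpowers c)
    have : (Subgroup.zpowers c).index ≠ 3 := by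
      intro h3
      rw [h3] at hk
      rcases k with _ | k
      · omega
      · rw [pow_succ] at hk; omega
    omega
  haveI hnt : Nontrivial D := ⟨⟨c, 1, fun h => hC (h ▸ one_mem _)⟩⟩
  -- the central involution
  obtain ⟨z, hzc, hz1, hzz⟩ : ∃ z ∈ Subgroup.center D, z ≠ 1 ∧ z * z = 1 := by
    haveI := h2.center_nontrivial
    have h3 : 2 ∣ Nat.card (Subgroup.center D) := by
      obtain ⟨k, hk⟩ := (IsPGroup.iff_card.1 (h2.to_subgroup (Subgroup.center D)))
      have h5 : 1 < Nat.card (Subgroup.center D) := Finite.one_lt_card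
      rw [hk] at h5 ⊢
      exact dvd_pow_self 2 (by rintro rfl; simp at h5)
    obtain ⟨w, hw⟩ := exists_prime_orderOf_dvd_card' 2 h3
    refine ⟨w, w.2, fun h5 => ?_, ?_⟩
    · have : w = 1 := Subtype.ext h5
      rw [this, orderOf_one] at hw
      omega
    · have h5 := pow_orderOf_eq_one w
      rw [hw, pow_two] at h5
      exact congrArg Subtype.val h5
  have hzC := Subgroup.mem_center_iff.1 hzc
  have huniq : ∀ a ∈ Subgroup.zpowers c, a ≠ 1 → a * a = 1 → a = z := fun a ha ha1 haa =>
    inv_unique ha (hA hzc) ha1 hz1 haa hzz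
  -- a normal four-group
  by_cases hK : ∀ E : Subgroup D, E.Normal → ¬ IsKleinFour E
  · left
    rcases Cfsg.Agent.Classification.NormalCyclic.exists_cyclic_index_two h2
      (fun A hA hAc => Cfsg.Agent.TwoFusion.NoNormalFour.isCyclic_of_no_normal_four h2 hK A hA hAc) with h | ⟨A, hA1, hA2⟩
    · obtain ⟨g, hg⟩ := h.exists_generator
      refine hone g ?_
      have : Subgroup.zpowers g = ⊤ := (Subgroup.eq_top_iff' _).2 hg
      rw [this, Subgroup.index_top]
      norm_num
    · obtain ⟨g, hg⟩ := Subgroup.isCyclic_iff_exists_zpowers_eq_top A |>.1 hA1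
      refine hone g ?_
      rw [hg, hA2]
  push Not at hK
  obtain ⟨K, hKn, hK4⟩ := hK
  have hzK : z ∈ K := by
    obtain ⟨w, hwK, hw1, hwc⟩ := Cfsg.Agent.H777.PGrp.inf_center_ne_bot h2 (N := K) (by
      rintro rfl
      have h5 := hK4.card_four
      rw [Subgroup.card_bot] at h5
      omega) hKn
    have hww : w * w = 1 := congrArg Subtype.val (IsKleinFour.mul_self (⟨w, hwK⟩ : K))
    rw [← huniq w (hA (Subgroup.mem_center_iff.2 hwc)) hw1 hww]
    exact hwK
  obtain ⟨e, heK, he1, hez⟩ : ∃ e ∈ K, e ≠ 1 ∧ e ≠ z := by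
    by_contra hcon
    push Not at hcon
    have h5 : K ≤ Subgroup.zpowers z := fun x hx => (mem_zpowers_sq hzz).2 (by
      by_cases h1 : x = 1
      · exact Or.inl h1
      · exact Or.inr (hcon x hx h1))
    have h6 := Subgroup.card_le_of_le h5
    rw [hK4.card_four, Nat.card_zpowers] at h6
    have h7 : orderOf z ∣ 2 := orderOf_dvd_of_pow_eq_one (by rw [pow_two, hzz])
    have h8 := Nat.le_of_dvd (by norm_num) h7
    omega
  have hee : e * e = 1 := congrArg Subtype.val (IsKleinFour.mul_self (⟨e, heK⟩ : K))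
  have heC : e ∉ Subgroup.zpowers c := fun h => hez (huniq e h he1 hee)
  have hconj : ∀ g, g * e * g⁻¹ = e ∨ g * e * g⁻¹ = z * e := by
    intro g
    by_cases h1 : g * e * g⁻¹ = e
    · exact Or.inl h1
    right
    have h5 : (⟨g * e * g⁻¹, hKn.conj_mem e heK g⟩ : K) = ⟨z, hzK⟩ * ⟨e, heK⟩ := by
      refine IsKleinFour.eq_mul_of_ne_all ?_ ?_ ?_ ?_ ?_ ?_
      · exact fun h => hz1 (congrArg Subtype.val h)
      · exact fun h => he1 (congrArg Subtype.val h)
      · exact fun h => hez (congrArg Subtype.val h).symm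
      · intro h
        have h6 : g * e * g⁻¹ = 1 := congrArg Subtype.val h
        exact he1 (by simpa using h6)
      · intro h
        have h6 : g * e * g⁻¹ = z := congrArg Subtype.val h
        apply hez
        have h7 : e = g⁻¹ * z * g := by rw [← h6]; group
        rw [h7, hzC, inv_mul_cancel_right]
      · exact fun h => h1 (congrArg Subtype.val h)
    exact congrArg Subtype.val h5
  -- the commutators
  have hcomm : ∃ g h : D, g * h * g⁻¹ * h⁻¹ ∉ Subgroup.zpowers z := by
    by_contra hcon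
    push Not at hcon
    have hcon' : ∀ g h : D, g * h * g⁻¹ * h⁻¹ = 1 ∨ g * h * g⁻¹ * h⁻¹ = z := fun g h =>
      (mem_zpowers_sq hzz).1 (hcon g h)
    set M := Subgroup.centralizer ({c} : Set D) with hM
    have hM2 : M.index ≤ 2 := index_centralizer_le hcon'
    obtain ⟨g, hg⟩ : ∃ g, g ∉ M := by
      by_contra h5
      push Not at h5
      exact hC (Subgroup.mem_center_iff.2 fun x => (mem_centralizer_iff'.1 (h5 x)).symm)
    have hM1 : M.index ≠ 1 := fun h5 => hg (Subgroup.index_eq_one.1 h5 ▸ Subgroup.mem_top g)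
    have hM0 : M.index ≠ 0 := Subgroup.index_ne_zero_of_finite
    have hMi : M.index = 2 := by omega
    have hcM : Subgroup.zpowers c ≤ M := by
      rw [Subgroup.zpowers_le]
      exact mem_centralizer_iff'.2 rfl
    have hrel : ((Subgroup.zpowers c).subgroupOf M).index = 2 := by
      have h5 := Subgroup.relIndex_mul_index hcM
      rw [hMi, h4] at h5
      change (Subgroup.zpowers c).relIndex M = 2
      omega
    have hcx : ∀ a ∈ M, ∀ x ∈ Subgroup.zpowers c, a * x = x * a := by
      intro a ha x hx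
      obtain ⟨k, rfl⟩ := Subgroup.mem_zpowers_iff.1 hx
      exact (Commute.zpow_right (show Commute a c from (mem_centralizer_iff'.1 ha).symm) k).eq
    have hMab : ∀ a ∈ M, ∀ b ∈ M, a * b = b * a := by
      intro a ha b hb
      by_cases h5 : a ∈ Subgroup.zpowers c
      · exact (hcx b hb a h5).symm
      by_cases h6 : b ∈ Subgroup.zpowers c
      · exact hcx a ha b h6
      have h7 := Subgroup.mul_mem_iff_of_index_two hrel (a := (⟨a, ha⟩ : M)) (b := (⟨b, hb⟩ : M)⁻¹)
      rw [inv_mem_iff] at h7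
      have h8 : a * b⁻¹ ∈ Subgroup.zpowers c := h7.2 ⟨fun h => absurd h h5, fun h => absurd h h6⟩
      have h9 := hcx b hb _ h8
      calc a * b = a * b⁻¹ * b * b := by group
        _ = b * (a * b⁻¹) * b := by rw [h9]
        _ = b * a := by group
    have hle : M ⊓ Subgroup.centralizer ({g} : Set D) ≤ Subgroup.center D := by
      rintro x ⟨hx1, hx2⟩
      rw [Subgroup.mem_center_iff]
      intro d
      by_cases hd : d ∈ M
      · exact hMab d hd x hx1
      have h5 := (Subgroup.mul_mem_iff_of_index_two hMi (a := d) (b := g⁻¹))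
      rw [inv_mem_iff] at h5
      have h6 : d * g⁻¹ ∈ M := h5.2 ⟨fun h => absurd h hd, fun h => absurd h hg⟩
      have h7 := hMab _ h6 x hx1
      have h8 := mem_centralizer_iff'.1 hx2
      calc d * x = d * g⁻¹ * (g * x) := by group
        _ = d * g⁻¹ * x * g := by rw [h8]; group
        _ = x * d := by rw [h7]; group
    have h5 : (Subgroup.center D).index ≤ 4 := by
      have h6 := Nat.le_of_dvd (Nat.pos_of_ne_zero Subgroup.index_ne_zero_of_finite) (Subgroup.index_dvd_of_le hle)
      have h7 := Subgroup.index_inf_le (H := M) (K := Subgroup.centralizer ({g} : Set D))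
      have h8 : (Subgroup.centralizer ({g} : Set D)).index ≤ 2 := index_centralizer_le hcon'
      have h9 := Nat.mul_le_mul hM2 h8
      omega
    have h6 := Subgroup.relIndex_mul_index hA
    rw [h4] at h6
    have h7 : (Subgroup.center D).relIndex (Subgroup.zpowers c) = 1 := by
      have h8 : (Subgroup.center D).index ≠ 0 := Subgroup.index_ne_zero_of_finite
      omega
    exact hC (Subgroup.relIndex_eq_one.1 h7 (Subgroup.mem_zpowers c))
  by_cases h8 : 8 ≤ orderOf c
  · exact Or.inr (Or.inr ⟨h4, h8, hA, z, hzc, hz1, hzz, ⟨e, heC, hee, hconj⟩, hcomm⟩)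
  -- `|c| = 4`
  left
  have hpow : ∀ x : D, ∃ k, orderOf x = 2 ^ k := fun x => by
    obtain ⟨k, hk⟩ := IsPGroup.iff_orderOf.1 h2 x
    exact ⟨k, hk⟩
  have hoc : orderOf c = 4 := by
    have h5 : orderOf c ≠ 1 := fun h => hC (orderOf_eq_one_iff.1 h ▸ one_mem _)
    have h6 : orderOf c ≠ 2 := by
      intro h
      have h7 := pow_orderOf_eq_one c
      rw [h, pow_two] at h7
      have h9 := huniq c (Subgroup.mem_zpowers c) (fun h => hC (h ▸ one_mem _)) h7
      exact hC (h9 ▸ hzc)
    obtain ⟨k, hk⟩ := hpow c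
    have h7 : k < 3 := by
      by_contra h
      have : 2 ^ 3 ≤ 2 ^ k := Nat.pow_le_pow_right (by norm_num) (by omega)
      omega
    interval_cases k <;> omega
  have hD : Nat.card D = 16 := by
    rw [← Subgroup.card_mul_index (Subgroup.zpowers c), Nat.card_zpowers, hoc, h4]
  obtain ⟨x, hx⟩ : ∃ x : D, x * x ∉ Subgroup.zpowers z := by
    by_contra hcon
    push Not at hcon
    obtain ⟨g, h, hgh⟩ := hcomm
    apply hgh
    have h5 : g * h * g⁻¹ * h⁻¹ = (g * g) * ((g⁻¹ * h) * (g⁻¹ * h)) * (h * h)⁻¹ := by group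
    rw [h5]
    exact mul_mem (mul_mem (hcon g) (hcon _)) (inv_mem (hcon h))
  have hxx : x * x ≠ 1 := fun h => hx (h ▸ one_mem _)
  obtain ⟨k, hk⟩ := hpow x
  have hk2 : 2 ≤ k := by
    by_contra h
    have h5 := pow_orderOf_eq_one x
    rw [hk] at h5
    interval_cases k
    · rw [pow_zero, pow_one] at h5
      exact hxx (by rw [h5, one_mul])
    · rw [pow_one, pow_two] at h5
      exact hxx h5
  have hix := Subgroup.card_mul_index (Subgroup.zpowers x)
  rw [Nat.card_zpowers, hD, hk] at hix
  by_cases hk3 : k = 2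
  · have h5 : (Subgroup.zpowers x).index ≤ 4 := by
      rw [hk3] at hix
      omega
    refine ⟨z, hzc, x, index_sup_le (fun h => ?_) h5⟩
    have h6 : x * x = z := by
      refine inv_unique (c := x) (mul_mem (Subgroup.mem_zpowers x) (Subgroup.mem_zpowers x))
        (h (Subgroup.mem_zpowers z)) hxx hz1 ?_ hzz
      have h7 := pow_orderOf_eq_one x
      rw [hk, hk3] at h7
      rw [← h7]
      simp only [← pow_two, ← pow_mul]
    exact hx (h6 ▸ Subgroup.mem_zpowers _)
  · refine hone x ?_
    have h5 : 2 ^ 3 ≤ 2 ^ k := Nat.pow_le_pow_right (by norm_num) (by omega)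
    nlinarith

end Cfsg.Agent.H352.FTRed
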