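import Mathlib
import Cfsg.Agent.H352.Wreath162
import Cfsg.Agent.GTwoFour.Tools

/-!
Finding the generators of `3 ≀ S₃` in a group of order 162.
-/

set_option autoImplicit false

namespace Cfsg.Agent.H352.Order162

open Cfsg.Agent.H352.Wreath162 Subgroup

variable {G : Type*} [Group G] [Finite G]

/-- Abstract core: `J` normal elementary abelian of order 27, `S` of index two. -/
theorem exists_rels (hG : Nat.card G = 162) (S J Z : Subgroup G) [hJn : J.Normal]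
    (hS : Nat.card S = 81) (hJS : J ≤ S)
    (hJcomm : ∀ a ∈ J, ∀ b ∈ J, a * b = b * a)
    (hJexp : ∀ a ∈ J, a ^ 3 = 1) (hJcard : Nat.card J = 27)
    (hZ : Z = S ⊓ centralizer (S : Set G)) (hZcard : Nat.card Z = 3)
    (t : G) (ht2 : t ^ 2 = 1) (ht1 : t ≠ 1)
    (hZt : ∀ z ∈ Z, t * z = z * t) (hSt : ∃ x ∈ S, t * x ≠ x * t) :
    ∃ e s t : G, Rels e s t ∧ closure ({e, s, t} : Set G) = ⊤ := by
  classical
  have htt : t * t = 1 := by rw [← pow_two, ht2]
  have htinv : t⁻¹ = t := by rw [inv_eq_iff_mul_eq_one, htt]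
  have hSi : S.index = 2 := by
    have := S.card_mul_index
    rw [hG, hS] at this; omega
  have hSn : S.Normal := normal_of_index_eq_two hSi
  have hSp : IsPGroup 3 S := IsPGroup.of_card (n := 4) (by rw [hS]; norm_num)
  have htS : t ∉ S := by
    intro h
    have h1 : orderOf t = 2 := orderOf_eq_prime ht2 ht1
    have h2 : orderOf t ∣ Nat.card S := Subgroup.orderOf_dvd_natCard S h
    rw [h1, hS] at h2
    omega
  -- the centralizer of `J` in `S` is `J`
  have hcent : ∀ x ∈ S, (∀ j ∈ J, x * j = j * x) → x ∈ J := by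
    intro x hx hxJ
    by_contra hxn
    let D : Subgroup G := S ⊓ centralizer (J : Set G)
    have hJD : J ≤ D := by
      intro a ha
      refine ⟨hJS ha, mem_centralizer_iff.2 ?_⟩
      intro b hb
      exact hJcomm b hb a ha
    have hxD : x ∈ D := by
      refine ⟨hx, mem_centralizer_iff.2 ?_⟩
      intro b hb
      exact (hxJ b hb).symm
    have hlt : Nat.card J < Nat.card D := by
      apply lt_of_le_of_ne (Subgroup.card_le_of_le hJD)
      intro h
      have : J = D := Subgroup.eq_of_le_of_card_ge hJD h.ge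
      exact hxn (this ▸ hxD)
    have hd1 : Nat.card J ∣ Nat.card D := Subgroup.card_dvd_of_le hJD
    have hd2 : Nat.card D ∣ Nat.card S := Subgroup.card_dvd_of_le inf_le_left
    rw [hJcard] at hd1 hlt
    rw [hS] at hd2
    have hD : Nat.card D = 81 := by
      obtain ⟨k, hk⟩ := hd1
      rw [hk] at hd2 hlt ⊢
      have h3 : k ∣ 3 := by
        have : 27 * k ∣ 27 * 3 := by simpa using hd2
        exact (Nat.mul_dvd_mul_iff_left (by norm_num)).1 this
      have := Nat.le_of_dvd (by norm_num) h3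
      interval_cases k <;> omega
    have hDS : D = S := Subgroup.eq_of_le_of_card_ge inf_le_left (by rw [hD, hS])
    have hJZ : J ≤ Z := by
      rw [hZ]
      intro a ha
      refine ⟨hJS ha, mem_centralizer_iff.2 ?_⟩
      intro b hb
      have hbD : b ∈ D := by rw [hDS]; exact hb
      have := (mem_centralizer_iff.1 hbD.2) a ha
      exact this.symm
    have := Subgroup.card_le_of_le hJZ
    omega
  have hZJ : Z ≤ J := by
    intro z hz
    rw [hZ] at hz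
    apply hcent z hz.1
    intro j hj
    exact ((mem_centralizer_iff.1 hz.2) j (hJS hj)).symm
  -- `t` does not centralize `J`
  have htJ : ∃ j ∈ J, t * j ≠ j * t := by
    by_contra hcon
    push Not at hcon
    obtain ⟨x, hx, hxt⟩ := hSt
    apply hxt
    have h1 : x⁻¹ * (t * x * t⁻¹) ∈ J := by
      apply hcent
      · exact mul_mem (inv_mem hx) (hSn.conj_mem x hx t)
      · intro j hj
        have hc1 : t⁻¹ * j * t = j := by rw [mul_assoc, ← hcon j hj, inv_mul_cancel_left]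
        have hxj : x * j * x⁻¹ ∈ J := hJn.conj_mem j hj x
        have hc2 : t * (x * j * x⁻¹) * t⁻¹ = x * j * x⁻¹ := by
          rw [hcon _ hxj, mul_inv_cancel_right]
        calc x⁻¹ * (t * x * t⁻¹) * j
            = x⁻¹ * (t * (x * (t⁻¹ * j * t) * x⁻¹) * t⁻¹) * (t * x * t⁻¹) := by group
          _ = x⁻¹ * (x * j * x⁻¹) * (t * x * t⁻¹) := by rw [hc1, hc2]
          _ = j * (x⁻¹ * (t * x * t⁻¹)) := by group
    obtain ⟨j, hj, hjx⟩ : ∃ j ∈ J, t * x * t⁻¹ = x * j :=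
      ⟨_, h1, by group⟩
    have h2 : x = x * j * j := by
      have h3 : t * (t * x * t⁻¹) * t⁻¹ = x := by
        calc t * (t * x * t⁻¹) * t⁻¹ = (t * t) * x * (t * t)⁻¹ := by group
          _ = x := by rw [htt]; group
      have h4 : t * (x * j) * t⁻¹ = x * j * j := by
        have hc3 : t * j * t⁻¹ = j := by rw [hcon j hj, mul_inv_cancel_right]
        calc t * (x * j) * t⁻¹ = (t * x * t⁻¹) * (t * j * t⁻¹) := by group
          _ = x * j * j := by rw [hjx, hc3]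
      rw [hjx, h4] at h3
      exact h3.symm
    have h5 : j * j = 1 := by
      have : x * (j * j) = x := by rw [← mul_assoc]; exact h2.symm
      exact mul_eq_left.1 this
    have h6 : j = 1 := by
      have h7 := hJexp j hj
      rw [pow_succ, pow_two, h5, one_mul] at h7
      exact h7
    rw [h6, mul_one] at hjx
    exact mul_inv_eq_iff_eq_mul.1 hjx
  -- choose `s0`
  obtain ⟨s0, hs0S, hs0J⟩ : ∃ s0 ∈ S, s0 ∉ J := by
    by_contra hcon
    push Not at hcon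
    have : S ≤ J := hcon
    have := Subgroup.card_le_of_le this
    omega
  -- the three cosets
  have himg : Nat.card (S.map (QuotientGroup.mk' J)) = 3 := by
    have h2 := Subgroup.card_mul_index (J.subgroupOf S)
    have h3 : Nat.card (J.subgroupOf S) = 27 := by
      rw [← hJcard]; exact Nat.card_congr (Subgroup.subgroupOfEquivOfLe hJS).toEquiv
    have h4 : (J.subgroupOf S).index = 3 := by rw [h3, hS] at h2; omega
    have h6 : ((QuotientGroup.mk' J).comp S.subtype).ker = J.subgroupOf S := by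
      rw [← MonoidHom.comap_ker, QuotientGroup.ker_mk']; rfl
    have h7 := Subgroup.index_ker ((QuotientGroup.mk' J).comp S.subtype)
    rw [h6, h4, MonoidHom.range_comp, Subgroup.range_subtype] at h7
    exact h7.symm
  have hcosets : ∀ x ∈ S, ∃ k : ℤ, s0 ^ k * x⁻¹ ∈ J := by
    intro x hx
    let q : G →* G ⧸ J := QuotientGroup.mk' J
    have hker : q.ker = J := QuotientGroup.ker_mk' J
    have h1 : Nat.card (S.map q) = 3 := himg
    have hfact : Fact (Nat.Prime 3) := ⟨by norm_num⟩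
    have ha : (⟨q s0, Subgroup.mem_map_of_mem q hs0S⟩ : S.map q) ≠ 1 := by
      intro h
      have h2 : q s0 = 1 := congrArg Subtype.val h
      apply hs0J
      rw [← hker]; exact h2
    have hb := mem_zpowers_of_prime_card h1 ha (g' := ⟨q x, Subgroup.mem_map_of_mem q hx⟩)
    obtain ⟨k, hk⟩ := Subgroup.mem_zpowers_iff.1 hb
    refine ⟨k, ?_⟩
    have hk' : q s0 ^ k = q x := congrArg Subtype.val hk
    rw [← hker, MonoidHom.mem_ker, map_mul, map_zpow, hk', map_inv, mul_inv_cancel]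
  -- elements of `J` commuting with an element of `S` outside `J` are in `Z`
  have hZs0 : ∀ j ∈ J, s0 * j = j * s0 → j ∈ Z := by
    intro j hj hc
    rw [hZ]
    refine ⟨hJS hj, mem_centralizer_iff.2 ?_⟩
    intro x hx
    obtain ⟨k, hk⟩ := hcosets x hx
    have h1 : Commute j (s0 ^ k) := (show Commute j s0 from hc.symm).zpow_right k
    have h2 : Commute j (s0 ^ k * x⁻¹) := hJcomm _ hj _ hk
    have h3 : Commute j ((s0 ^ k * x⁻¹)⁻¹ * s0 ^ k) := h2.inv_right.mul_right h1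
    have h4 : (s0 ^ k * x⁻¹)⁻¹ * s0 ^ k = x := by group
    rw [h4] at h3
    exact h3.symm.eq
  -- `t s0 t⁻¹ ∉ s0 J`
  have hnot : ¬ (∃ j ∈ J, t * s0 * t⁻¹ = s0 * j) := by
    rintro ⟨j0, hj0, hj0e⟩
    let D : Subgroup G :=
      { carrier := {x | x ∈ J ∧ t * x * t⁻¹ = x⁻¹}
        one_mem' := ⟨J.one_mem, by group⟩
        mul_mem' := by
          rintro a b ⟨ha, ha'⟩ ⟨hb, hb'⟩
          refine ⟨mul_mem ha hb, ?_⟩
          calc t * (a * b) * t⁻¹ = (t * a * t⁻¹) * (t * b * t⁻¹) := by group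
            _ = a⁻¹ * b⁻¹ := by rw [ha', hb']
            _ = (b * a)⁻¹ := by group
            _ = (a * b)⁻¹ := by rw [hJcomm a ha b hb]
        inv_mem' := by
          rintro a ⟨ha, ha'⟩
          refine ⟨inv_mem ha, ?_⟩
          calc t * a⁻¹ * t⁻¹ = (t * a * t⁻¹)⁻¹ := by group
            _ = a⁻¹⁻¹ := by rw [ha'] }
    have hDS : D ≤ S := fun x hx => hJS hx.1
    have hsemi : ∀ x ∈ S, ∃ j ∈ J, t * x * t⁻¹ = x * j := by
      have hzp : ∀ k : ℤ, ∃ j ∈ J, t * s0 ^ k * t⁻¹ = s0 ^ k * j := by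
        intro k
        have h1 : t * s0 ^ k * t⁻¹ = (s0 * j0) ^ k := by rw [← hj0e, conj_zpow]
        refine ⟨(s0 ^ k)⁻¹ * (s0 * j0) ^ k, ?_, by rw [h1]; group⟩
        rw [← QuotientGroup.eq_one_iff, QuotientGroup.mk_mul, QuotientGroup.mk_inv,
          QuotientGroup.mk_zpow, QuotientGroup.mk_zpow, QuotientGroup.mk_mul,
          (QuotientGroup.eq_one_iff j0).2 hj0, mul_one, inv_mul_cancel]
      intro x hx
      obtain ⟨k, hk⟩ := hcosets x hx
      obtain ⟨j, hj, hjk⟩ := hzp k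
      set m := s0 ^ k * x⁻¹ with hm
      have hx' : x = m⁻¹ * s0 ^ k := by rw [hm]; group
      refine ⟨x⁻¹ * (t * x * t⁻¹), ?_, by group⟩
      rw [← QuotientGroup.eq_one_iff]
      have e1 : ((x : G) : G ⧸ J) = ((s0 ^ k : G) : G ⧸ J) := by
        rw [hx', QuotientGroup.mk_mul, QuotientGroup.mk_inv, (QuotientGroup.eq_one_iff m).2 hk,
          inv_one, one_mul]
      have e2 : ((t * x * t⁻¹ : G) : G ⧸ J) = ((t * s0 ^ k * t⁻¹ : G) : G ⧸ J) := by
        rw [QuotientGroup.mk_mul, QuotientGroup.mk_mul, e1]; rfl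
      rw [QuotientGroup.mk_mul, e2, hjk, QuotientGroup.mk_mul, (QuotientGroup.eq_one_iff j).2 hj,
        mul_one, QuotientGroup.mk_inv, e1, inv_mul_cancel]
    have hDn : (D.subgroupOf S).Normal := by
      constructor
      rintro ⟨d, hdS⟩ hd ⟨x, hx⟩
      rw [mem_subgroupOf] at hd ⊢
      obtain ⟨hdJ, hdt⟩ := hd
      have hdJ' : d ∈ J := hdJ
      have hdt' : t * d * t⁻¹ = d⁻¹ := hdt
      obtain ⟨j, hj, hjx⟩ := hsemi x hx
      refine ⟨hJn.conj_mem d hdJ' x, ?_⟩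
      show t * (x * d * x⁻¹) * t⁻¹ = (x * d * x⁻¹)⁻¹
      have hc : j * d⁻¹ * j⁻¹ = d⁻¹ := by
        rw [hJcomm j hj d⁻¹ (inv_mem hdJ'), mul_inv_cancel_right]
      calc t * (x * d * x⁻¹) * t⁻¹ = (t * x * t⁻¹) * (t * d * t⁻¹) * (t * x * t⁻¹)⁻¹ := by group
        _ = x * (j * d⁻¹ * j⁻¹) * x⁻¹ := by rw [hjx, hdt']; group
        _ = (x * d * x⁻¹)⁻¹ := by rw [hc]; group
    have hDne : D.subgroupOf S ≠ ⊥ := by
      intro hbot
      obtain ⟨j, hj, hjt⟩ := htJ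
      have hj' : t * j * t⁻¹ ∈ J := hJn.conj_mem j hj t
      have hd : t * j * t⁻¹ * j⁻¹ ∈ D := by
        refine ⟨mul_mem hj' (inv_mem hj), ?_⟩
        calc t * (t * j * t⁻¹ * j⁻¹) * t⁻¹ = (t * t) * j * (t * t)⁻¹ * (t * j * t⁻¹)⁻¹ := by group
          _ = j * (t * j * t⁻¹)⁻¹ := by rw [htt]; group
          _ = (t * j * t⁻¹ * j⁻¹)⁻¹ := by group
      have h1 : (⟨t * j * t⁻¹ * j⁻¹, hDS hd⟩ : S) ∈ D.subgroupOf S := hd
      rw [hbot, mem_bot] at h1
      have h2 : t * j * t⁻¹ * j⁻¹ = 1 := congrArg Subtype.val h1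
      have h3 := mul_inv_eq_one.1 h2
      exact hjt (mul_inv_eq_iff_eq_mul.1 h3)
    have hfact : Fact (Nat.Prime 3) := ⟨by norm_num⟩
    obtain ⟨z, hzD, hzc, hz1⟩ := Cfsg.Agent.GTwoFour.Tools.exists_mem_center_of_normal hSp
      (D.subgroupOf S) hDne
    have hzD' : (z : G) ∈ D := hzD
    have hzZ : (z : G) ∈ Z := by
      rw [hZ]
      refine ⟨z.2, mem_centralizer_iff.2 ?_⟩
      intro x hx
      have := (mem_center_iff.1 hzc) ⟨x, hx⟩
      exact congrArg Subtype.val this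
    have h1 := hZt z hzZ
    have h2 : t * (z : G) * t⁻¹ = (z : G)⁻¹ := hzD'.2
    rw [h1, mul_inv_cancel_right] at h2
    have h3 := hJexp z (hZJ hzZ)
    have h4 : (z : G) * z = 1 := mul_eq_one_iff_eq_inv.2 h2
    rw [pow_succ, pow_two, h4, one_mul] at h3
    exact hz1 (Subtype.ext h3)
  -- so `t s0 t⁻¹ ∈ s0⁻¹ J`
  have hcube : ∀ x ∈ S, x ^ 3 ∈ J := by
    intro x hx
    have h1 : (⟨QuotientGroup.mk' J x, Subgroup.mem_map_of_mem _ hx⟩ :
        S.map (QuotientGroup.mk' J)) ^ 3 = 1 := by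
      rw [← himg]; exact pow_card_eq_one'
    have h2 : (QuotientGroup.mk' J x) ^ 3 = 1 := congrArg Subtype.val h1
    rw [← map_pow] at h2
    exact (QuotientGroup.eq_one_iff _).1 h2
  have hinv : t * s0 * t⁻¹ * s0 ∈ J := by
    obtain ⟨k, hk⟩ := hcosets _ (hSn.conj_mem s0 hs0S t)
    have hs3 : s0 ^ 3 ∈ J := hcube s0 hs0S
    have hk3 : s0 ^ k = s0 ^ (k % 3) * (s0 ^ 3) ^ (k / 3) := by
      rw [← zpow_natCast s0 3, ← zpow_mul, ← zpow_add]
      congr 1
      have := Int.emod_add_mul_ediv k 3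
      push_cast
      omega
    have hkr : s0 ^ (k % 3) * (t * s0 * t⁻¹)⁻¹ ∈ J := by
      have h1 : s0 ^ (k % 3) * (t * s0 * t⁻¹)⁻¹ =
          (s0 ^ (k % 3) * ((s0 ^ 3) ^ (k / 3))⁻¹ * (s0 ^ (k % 3))⁻¹) *
            (s0 ^ k * (t * s0 * t⁻¹)⁻¹) := by
        rw [hk3]; group
      rw [h1]
      exact mul_mem (hJn.conj_mem _ (inv_mem (zpow_mem hs3 _)) _) hk
    have hcases : k % 3 = 0 ∨ k % 3 = 1 ∨ k % 3 = 2 := by omega
    rcases hcases with h | h | h
    · exfalso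
      rw [h, zpow_zero, one_mul, inv_mem_iff] at hkr
      apply hs0J
      have := hJn.conj_mem _ hkr t⁻¹
      have e : t⁻¹ * (t * s0 * t⁻¹) * t⁻¹⁻¹ = s0 := by group
      rwa [e] at this
    · exfalso
      rw [h, zpow_one] at hkr
      apply hnot
      refine ⟨s0⁻¹ * (t * s0 * t⁻¹), ?_, by group⟩
      have h2 := hJn.conj_mem _ (inv_mem hkr) s0⁻¹
      have e : s0⁻¹ * (s0 * (t * s0 * t⁻¹)⁻¹)⁻¹ * s0⁻¹⁻¹ = s0⁻¹ * (t * s0 * t⁻¹) := by group
      rwa [e] at h2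
    · rw [h] at hkr
      have h2 : t * s0 * t⁻¹ * s0 = (s0 ^ (2 : ℤ) * (t * s0 * t⁻¹)⁻¹)⁻¹ * s0 ^ 3 := by
        rw [← zpow_natCast s0 3]; push_cast; group
      rw [h2]
      exact mul_mem (inv_mem hkr) hs3
  -- the new generator
  obtain ⟨s, hss0, hts⟩ : ∃ s : G, s0⁻¹ * s ∈ J ∧ t * s * t⁻¹ = s⁻¹ := by
    have hu2 : (t * s0) ^ 2 ∈ J := by
      have : (t * s0) ^ 2 = t * s0 * t⁻¹ * s0 := by rw [pow_two, htinv]; group
      rw [this]; exact hinv
    have hu6 : ((t * s0) ^ 2) ^ 3 = 1 := hJexp _ hu2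
    obtain ⟨u, hu⟩ : ∃ u, u = t * s0 := ⟨_, rfl⟩
    rw [← hu] at hu2 hu6
    have hu6' : u ^ 3 * u ^ 3 = 1 := by
      rw [← pow_add, show 3 + 3 = 2 * 3 by norm_num, pow_mul]; exact hu6
    refine ⟨t * u ^ 3, ?_, ?_⟩
    · have h1 : s0⁻¹ * (t * u ^ 3) = s0⁻¹ * (t * t) * s0 * (u ^ 2) := by
        rw [pow_succ' u 2]
        calc s0⁻¹ * (t * (u * u ^ 2)) = s0⁻¹ * (t * ((t * s0) * u ^ 2)) := by rw [← hu]
          _ = s0⁻¹ * (t * t) * s0 * (u ^ 2) := by group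
      rw [h1, htt, mul_one, inv_mul_cancel, one_mul]
      exact hu2
    · have h2 : (t * u ^ 3)⁻¹ = u ^ 3 * t := by
        rw [mul_inv_rev, htinv, inv_eq_of_mul_eq_one_right hu6']
      rw [h2, ← mul_assoc, htt, one_mul, htinv]
  have hsS : s ∈ S := by
    have : s = s0 * (s0⁻¹ * s) := by group
    rw [this]; exact mul_mem hs0S (hJS hss0)
  have hsJ : s ∉ J := by
    intro h
    apply hs0J
    have : s0 = s * (s0⁻¹ * s)⁻¹ := by group
    rw [this]; exact mul_mem h (inv_mem hss0)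
  have hZs : ∀ j ∈ J, s * j = j * s → j ∈ Z := by
    intro j hj hc
    apply hZs0 j hj
    have h1 : Commute (s0⁻¹ * s) j := hJcomm _ hss0 _ hj
    have h2 : Commute s j := hc
    have h3 : Commute (s * (s0⁻¹ * s)⁻¹) j := h2.mul_left h1.inv_left
    have h4 : s * (s0⁻¹ * s)⁻¹ = s0 := by group
    rw [h4] at h3
    exact h3.eq
  have hs3 : s ^ 3 = 1 := by
    have h1 : s ^ 3 ∈ J := hcube s hsS
    have h2 : s ^ 3 ∈ Z := hZs _ h1 (by rw [← pow_succ, ← pow_succ'])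
    have h3 : t * s ^ 3 * t⁻¹ = (s ^ 3)⁻¹ := by rw [← conj_pow, hts, inv_pow]
    rw [hZt _ h2, mul_inv_cancel_right] at h3
    have h4 : s ^ 3 * s ^ 3 = 1 := mul_eq_one_iff_eq_inv.2 h3
    have h5 := hJexp _ h1
    rw [pow_succ, pow_two, h4, one_mul] at h5
    exact h5
  have hsinv : s⁻¹ = s * s := by
    rw [inv_eq_iff_mul_eq_one, ← hs3]; simp only [pow_succ, pow_zero, one_mul]; rw [mul_assoc]
  have hst : (s * t) ^ 2 = 1 := by
    have : (s * t) ^ 2 = s * (t * s * t⁻¹) := by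
      rw [htinv, pow_two]; group
    rw [this, hts, mul_inv_cancel]
  have hcs : ∀ x ∈ J, s * x * s⁻¹ ∈ J := fun x hx => hJn.conj_mem x hx s
  have hcs' : ∀ x ∈ J, s⁻¹ * x * s ∈ J := fun x hx => by
    have := hJn.conj_mem x hx s⁻¹
    rwa [inv_inv] at this
  -- the map `δ`
  let δ : J →* G :=
    { toFun := fun x => s * x * s⁻¹ * (x : G)⁻¹
      map_one' := by simp
      map_mul' := by
        rintro ⟨a, ha⟩ ⟨b, hb⟩
        show s * (a * b) * s⁻¹ * (a * b)⁻¹ = s * a * s⁻¹ * a⁻¹ * (s * b * s⁻¹ * b⁻¹)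
        have h1 := hJcomm _ (mul_mem (hcs b hb) (inv_mem hb)) _ (inv_mem ha)
        calc s * (a * b) * s⁻¹ * (a * b)⁻¹ = s * a * s⁻¹ * ((s * b * s⁻¹ * b⁻¹) * a⁻¹) := by group
          _ = s * a * s⁻¹ * a⁻¹ * (s * b * s⁻¹ * b⁻¹) := by rw [h1]; group }
  have hδ : ∀ x (hx : x ∈ J), δ ⟨x, hx⟩ = s * x * s⁻¹ * x⁻¹ := fun x hx => rfl
  have hδJ : ∀ x, δ x ∈ J := fun x => mul_mem (hcs x x.2) (inv_mem x.2)
  have hδδ : ∀ x (hx : x ∈ J), δ ⟨δ ⟨x, hx⟩, hδJ _⟩ = x * (s * x * s⁻¹) * (s⁻¹ * x * s) := by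
    intro x hx
    rw [hδ, hδ]
    have hx1 := hcs x hx
    have hx2 := hcs' x hx
    have h0 : s * s * x * (s * s)⁻¹ = s⁻¹ * x * s := by rw [← hsinv, inv_inv]
    have h3 : (s * x * s⁻¹)⁻¹ * (s * x * s⁻¹)⁻¹ = s * x * s⁻¹ := by
      have := hJexp _ hx1
      rw [pow_succ, pow_two] at this
      calc (s * x * s⁻¹)⁻¹ * (s * x * s⁻¹)⁻¹
          = (s * x * s⁻¹)⁻¹ * (s * x * s⁻¹)⁻¹ * ((s * x * s⁻¹) * (s * x * s⁻¹) * (s * x * s⁻¹)) := by
            rw [this, mul_one]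
        _ = s * x * s⁻¹ := by group
    calc s * (s * x * s⁻¹ * x⁻¹) * s⁻¹ * (s * x * s⁻¹ * x⁻¹)⁻¹
        = (s * s * x * (s * s)⁻¹) * ((s * x * s⁻¹)⁻¹ * (x * (s * x * s⁻¹)⁻¹)) := by group
      _ = (s⁻¹ * x * s) * ((s * x * s⁻¹)⁻¹ * ((s * x * s⁻¹)⁻¹ * x)) := by
        rw [h0, hJcomm x hx _ (inv_mem hx1)]
      _ = (s⁻¹ * x * s) * ((s * x * s⁻¹) * x) := by rw [← mul_assoc (s * x * s⁻¹)⁻¹, h3]
      _ = (s⁻¹ * x * s) * (x * (s * x * s⁻¹)) := by rw [hJcomm x hx _ hx1]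
      _ = x * (s * x * s⁻¹) * (s⁻¹ * x * s) := by rw [hJcomm _ hx2 _ (mul_mem hx hx1)]
  have hker : ∀ x (hx : x ∈ J), δ ⟨x, hx⟩ = 1 → x ∈ Z := by
    intro x hx h
    apply hZs x hx
    rw [hδ] at h
    exact mul_inv_eq_iff_eq_mul.1 (mul_inv_eq_one.1 h)
  have hker' : ∀ x (hx : x ∈ J), x ∈ Z → δ ⟨x, hx⟩ = 1 := by
    intro x hx h
    rw [hδ, mul_inv_eq_one]
    rw [hZ] at h
    have := (mem_centralizer_iff.1 h.2) s hsS
    rw [this, mul_inv_cancel_right]
  have hkerc : Nat.card δ.ker = 3 := by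
    rw [← hZcard]
    apply Nat.card_congr
    exact
      { toFun := fun x => ⟨x.1.1, hker _ x.1.2 (MonoidHom.mem_ker.1 x.2)⟩
        invFun := fun z => ⟨⟨z.1, hZJ z.2⟩, MonoidHom.mem_ker.2 (hker' _ _ z.2)⟩
        left_inv := fun x => rfl
        right_inv := fun x => rfl }
  have hrange : Nat.card δ.range = 9 := by
    have h1 := Subgroup.card_mul_index δ.ker
    rw [Subgroup.index_ker, hkerc, hJcard] at h1
    omega
  -- element with nontrivial norm
  obtain ⟨j, hj, hNj⟩ : ∃ j ∈ J, j * (s * j * s⁻¹) * (s⁻¹ * j * s) ≠ 1 := by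
    by_contra hcon
    push Not at hcon
    have h1 : δ.range ≤ Z := by
      rintro y ⟨⟨x, hx⟩, rfl⟩
      apply hker _ (hδJ _)
      rw [hδδ]; exact hcon x hx
    have := Subgroup.card_le_of_le h1
    omega
  set e := j * (t * j * t⁻¹) with he
  have hj' : t * j * t⁻¹ ∈ J := hJn.conj_mem j hj t
  have heJ : e ∈ J := mul_mem hj hj'
  have het : e * t = t * e := by
    have h1 : t * e * t⁻¹ = e := by
      calc t * e * t⁻¹ = (t * j * t⁻¹) * ((t * t) * j * (t * t)⁻¹) := by rw [he]; group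
        _ = (t * j * t⁻¹) * j := by rw [htt]; group
        _ = e := by rw [he, hJcomm j hj _ hj']
    exact (mul_inv_eq_iff_eq_mul.1 h1).symm
  have hts1 : t * s = s⁻¹ * t := mul_inv_eq_iff_eq_mul.1 hts
  have hts2 : t * s⁻¹ = s * t := by
    have : t * s⁻¹ * t⁻¹ = s := by
      have h1 : t * s⁻¹ * t⁻¹ = (t * s * t⁻¹)⁻¹ := by group
      rw [h1, hts, inv_inv]
    exact mul_inv_eq_iff_eq_mul.1 this
  -- the norm of `e`
  have hNe : e * (s * e * s⁻¹) * (s⁻¹ * e * s) ≠ 1 := by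
    obtain ⟨j1, hj1⟩ : ∃ j1, j1 = s * j * s⁻¹ := ⟨_, rfl⟩
    obtain ⟨j2, hj2⟩ : ∃ j2, j2 = s⁻¹ * j * s := ⟨_, rfl⟩
    rw [← hj1, ← hj2] at hNj
    have hj1J : j1 ∈ J := hj1 ▸ hcs j hj
    have hj2J : j2 ∈ J := hj2 ▸ hcs' j hj
    obtain ⟨n, hn⟩ : ∃ n, n = j * j1 * j2 := ⟨_, rfl⟩
    rw [← hn] at hNj
    have hnJ : n ∈ J := hn ▸ mul_mem (mul_mem hj hj1J) hj2J
    have hsn : s * n * s⁻¹ = n := by
      have h1 : s * j1 * s⁻¹ = j2 := by
        rw [hj1, hj2]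
        calc s * (s * j * s⁻¹) * s⁻¹ = (s * s) * j * (s * s)⁻¹ := by group
          _ = s⁻¹ * j * s := by rw [← hsinv, inv_inv]
      have h2 : s * j2 * s⁻¹ = j := by rw [hj2]; group
      calc s * n * s⁻¹ = (s * j * s⁻¹) * (s * j1 * s⁻¹) * (s * j2 * s⁻¹) := by rw [hn]; group
        _ = j1 * j2 * j := by rw [h1, h2, ← hj1]
        _ = j * (j1 * j2) := by rw [hJcomm _ (mul_mem hj1J hj2J) _ hj]
        _ = n := by rw [hn, mul_assoc]
    have hnZ : n ∈ Z := hZs n hnJ (mul_inv_eq_iff_eq_mul.1 hsn)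
    have htn : t * n * t⁻¹ = n := by rw [hZt n hnZ, mul_inv_cancel_right]
    have e1 : s * (t * j * t⁻¹) * s⁻¹ = t * j2 * t⁻¹ := by
      calc s * (t * j * t⁻¹) * s⁻¹ = (s * t) * j * (s * t)⁻¹ := by group
        _ = (t * s⁻¹) * j * (t * s⁻¹)⁻¹ := by rw [hts2]
        _ = t * j2 * t⁻¹ := by rw [hj2]; group
    have e2 : s⁻¹ * (t * j * t⁻¹) * s = t * j1 * t⁻¹ := by
      calc s⁻¹ * (t * j * t⁻¹) * s = (s⁻¹ * t) * j * (s⁻¹ * t)⁻¹ := by group
        _ = (t * s) * j * (t * s)⁻¹ := by rw [hts1]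
        _ = t * j1 * t⁻¹ := by rw [hj1]; group
    have htj1 : t * j1 * t⁻¹ ∈ J := hJn.conj_mem _ hj1J t
    have htj2 : t * j2 * t⁻¹ ∈ J := hJn.conj_mem _ hj2J t
    have hprod : e * (s * e * s⁻¹) * (s⁻¹ * e * s) = n * n := by
      have h1 : s * e * s⁻¹ = j1 * (t * j2 * t⁻¹) := by
        rw [← e1, he, hj1]; group
      have h2 : s⁻¹ * e * s = j2 * (t * j1 * t⁻¹) := by
        rw [← e2, he, hj2]; group
      rw [h1, h2, he]
      have h3 : t * n * t⁻¹ = (t * j * t⁻¹) * (t * j2 * t⁻¹) * (t * j1 * t⁻¹) := by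
        rw [hn, mul_assoc j, hJcomm j1 hj1J j2 hj2J]; group
      calc j * (t * j * t⁻¹) * (j1 * (t * j2 * t⁻¹)) * (j2 * (t * j1 * t⁻¹))
          = j * ((t * j * t⁻¹) * j1) * (((t * j2 * t⁻¹) * j2) * (t * j1 * t⁻¹)) := by
            simp only [mul_assoc]
        _ = j * (j1 * (t * j * t⁻¹)) * ((j2 * (t * j2 * t⁻¹)) * (t * j1 * t⁻¹)) := by
            rw [hJcomm _ hj' _ hj1J, hJcomm _ htj2 _ hj2J]
        _ = j * j1 * ((t * j * t⁻¹) * j2) * ((t * j2 * t⁻¹) * (t * j1 * t⁻¹)) := by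
            simp only [mul_assoc]
        _ = j * j1 * (j2 * (t * j * t⁻¹)) * ((t * j2 * t⁻¹) * (t * j1 * t⁻¹)) := by
            rw [hJcomm _ hj' _ hj2J]
        _ = n * (t * n * t⁻¹) := by rw [h3, hn]; simp only [mul_assoc]
        _ = n * n := by rw [htn]
    rw [hprod]
    intro h
    have h3 := hJexp n hnJ
    rw [pow_succ, pow_two, h, one_mul] at h3
    exact hNj h3
  refine ⟨e, s, t, ⟨hJexp e heJ, hs3, ht2, hst, het, hJcomm _ heJ _ (hcs e heJ)⟩, ?_⟩
  set K := closure ({e, s, t} : Set G) with hK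
  have heK : e ∈ K := subset_closure (by simp)
  have hsK : s ∈ K := subset_closure (by simp)
  have htK : t ∈ K := subset_closure (by simp)
  -- norms are in `Z`
  have hNZ : ∀ x ∈ J, x * (s * x * s⁻¹) * (s⁻¹ * x * s) ∈ Z := by
    intro x hx
    obtain ⟨x1, hx1⟩ : ∃ x1, x1 = s * x * s⁻¹ := ⟨_, rfl⟩
    obtain ⟨x2, hx2⟩ : ∃ x2, x2 = s⁻¹ * x * s := ⟨_, rfl⟩
    rw [← hx1, ← hx2]
    have hx1J : x1 ∈ J := hx1 ▸ hcs x hx
    have hx2J : x2 ∈ J := hx2 ▸ hcs' x hx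
    have hsn : s * (x * x1 * x2) * s⁻¹ = x * x1 * x2 := by
      have h1 : s * x1 * s⁻¹ = x2 := by
        rw [hx1, hx2]
        calc s * (s * x * s⁻¹) * s⁻¹ = (s * s) * x * (s * s)⁻¹ := by group
          _ = s⁻¹ * x * s := by rw [← hsinv, inv_inv]
      have h2 : s * x2 * s⁻¹ = x := by rw [hx2]; group
      calc s * (x * x1 * x2) * s⁻¹ = (s * x * s⁻¹) * (s * x1 * s⁻¹) * (s * x2 * s⁻¹) := by group
        _ = x1 * x2 * x := by rw [h1, h2, ← hx1]
        _ = x * (x1 * x2) := by rw [hJcomm _ (mul_mem hx1J hx2J) _ hx]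
        _ = x * x1 * x2 := by rw [mul_assoc]
    exact hZs _ (mul_mem (mul_mem hx hx1J) hx2J) (mul_inv_eq_iff_eq_mul.1 hsn)
  -- `J ≤ K`
  have hJK : J ≤ K := by
    obtain ⟨n, hn⟩ : ∃ n, n = e * (s * e * s⁻¹) * (s⁻¹ * e * s) := ⟨_, rfl⟩
    have hnK : n ∈ K := hn ▸ mul_mem (mul_mem heK (mul_mem (mul_mem hsK heK) (inv_mem hsK)))
      (mul_mem (mul_mem (inv_mem hsK) heK) hsK)
    have hnZ : n ∈ Z := hn ▸ hNZ e heJ
    have hn1 : n ≠ 1 := hn ▸ hNe
    have hde : δ ⟨e, heJ⟩ ∈ K := by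
      rw [hδ]; exact mul_mem (mul_mem (mul_mem hsK heK) (inv_mem hsK)) (inv_mem heK)
    have hdn : δ ⟨δ ⟨e, heJ⟩, hδJ _⟩ = n := by rw [hδδ, hn]
    have hfact : Fact (Nat.Prime 3) := ⟨by norm_num⟩
    have hZle : ∀ B : Subgroup G, n ∈ B → Z ≤ B := by
      intro B hB z hz
      have h1 := mem_zpowers_of_prime_card hZcard (g := (⟨n, hnZ⟩ : Z)) (g' := ⟨z, hz⟩) (by
        intro h; exact hn1 (congrArg Subtype.val h))
      obtain ⟨k, hk⟩ := Subgroup.mem_zpowers_iff.1 h1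
      have hk' : n ^ k = z := congrArg Subtype.val hk
      rw [← hk']; exact zpow_mem hB k
    have hZK : Z ≤ K := hZle K hnK
    let A : Subgroup J := K.subgroupOf J
    let f : A →* G := δ.comp A.subtype
    have hfr : 9 ≤ Nat.card f.range := by
      have hnf : n ∈ f.range := by
        refine ⟨⟨⟨δ ⟨e, heJ⟩, hδJ _⟩, ?_⟩, hdn⟩
        exact hde
      have h1 : Z ≤ f.range := hZle _ hnf
      have hdf : δ ⟨e, heJ⟩ ∈ f.range := ⟨⟨⟨e, heJ⟩, heK⟩, rfl⟩
      have h2 : δ ⟨e, heJ⟩ ∉ Z := by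
        intro h
        have := hker' _ (hδJ _) h
        rw [hdn] at this
        exact hn1 this
      have h3 : f.range ≤ J := by
        rintro _ ⟨x, rfl⟩
        exact hδJ _
      have h4 : Nat.card f.range ∣ 27 := by rw [← hJcard]; exact Subgroup.card_dvd_of_le h3
      have h5 : 3 ∣ Nat.card f.range := by rw [← hZcard]; exact Subgroup.card_dvd_of_le h1
      have h6 : Nat.card f.range ≠ 3 := by
        intro h
        have : Z = f.range := Subgroup.eq_of_le_of_card_ge h1 (by rw [h, hZcard])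
        exact h2 (this ▸ hdf)
      have h7 : (27 : ℕ) = 3 ^ 3 := by norm_num
      rw [h7] at h4
      obtain ⟨k, hk, hk'⟩ := (Nat.dvd_prime_pow (by norm_num)).1 h4
      rw [hk'] at h5 h6 ⊢
      interval_cases k <;> omega
    have hfk : 3 ≤ Nat.card f.ker := by
      rw [← hZcard]
      apply Nat.card_le_card_of_injective
        (fun z : Z => (⟨⟨⟨z.1, hZJ z.2⟩, hZK z.2⟩, MonoidHom.mem_ker.2 (hker' _ _ z.2)⟩ : f.ker))
      intro a b hab
      have h1 := congrArg (fun x : f.ker => (x.1.1.1 : G)) hab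
      exact Subtype.ext h1
    have h1 := Subgroup.card_mul_index f.ker
    rw [Subgroup.index_ker] at h1
    have h2 : 27 ≤ Nat.card A := by
      rw [← h1]
      calc 27 = 3 * 9 := by norm_num
        _ ≤ _ := Nat.mul_le_mul hfk hfr
    have h3 : A = ⊤ := by
      apply Subgroup.eq_top_of_le_card
      rw [hJcard]; exact h2
    exact Subgroup.subgroupOf_eq_top.1 h3
  have h27 : 27 ∣ Nat.card (K ⊓ S : Subgroup G) := by
    rw [← hJcard]; exact Subgroup.card_dvd_of_le (le_inf hJK hJS)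
  have h81 : Nat.card (K ⊓ S : Subgroup G) ∣ 81 := by
    rw [← hS]; exact Subgroup.card_dvd_of_le inf_le_right
  have hne : Nat.card (K ⊓ S : Subgroup G) ≠ 27 := by
    intro h
    have h1 : J = K ⊓ S := Subgroup.eq_of_le_of_card_ge (le_inf hJK hJS) (by rw [h, hJcard])
    exact hsJ (h1 ▸ ⟨hsK, hsS⟩)
  have h81' : Nat.card (K ⊓ S : Subgroup G) = 81 := by
    obtain ⟨k, hk⟩ := h27
    rw [hk] at h81 hne ⊢
    have h3 : k ∣ 3 := by
      have : 27 * k ∣ 27 * 3 := by simpa using h81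
      exact (Nat.mul_dvd_mul_iff_left (by norm_num)).1 this
    have := Nat.le_of_dvd (by norm_num) h3
    interval_cases k <;> omega
  have hSK : S ≤ K := by
    have : K ⊓ S = S := Subgroup.eq_of_le_of_card_ge inf_le_right (by rw [h81', hS])
    rw [← this]; exact inf_le_left
  have h1 : 81 ∣ Nat.card K := by rw [← hS]; exact Subgroup.card_dvd_of_le hSK
  have h2 : Nat.card K ∣ 162 := by rw [← hG]; exact Subgroup.card_subgroup_dvd_card K
  have h3 : Nat.card K ≠ 81 := by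
    intro h
    have : S = K := Subgroup.eq_of_le_of_card_ge hSK (by rw [h, hS])
    exact htS (this ▸ htK)
  apply Subgroup.eq_top_of_card_eq
  rw [hG]
  obtain ⟨k, hk⟩ := h1
  rw [hk] at h2 h3 ⊢
  have h4 : k ∣ 2 := by
    have : 81 * k ∣ 81 * 2 := by simpa using h2
    exact (Nat.mul_dvd_mul_iff_left (by norm_num)).1 this
  have := Nat.le_of_dvd (by norm_num) h4
  interval_cases k <;> omega

end Cfsg.Agent.H352.Order162
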