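import Cfsg.Agent.H412.Tc.HeisDefs

/-!
# S3621, the lemma `EncTwo` (helper352, task 1163 of helper412)
-/

set_option autoImplicit false
set_option linter.unusedSectionVars false

namespace Cfsg.Agent.H352.TcEncTwo

open Cfsg.Agent.H412.Tc

universe u

variable {K V : Type u} [Field K] [Finite K] [AddCommGroup V] [Finite V] [Module K V]
  {A B : Subgroup (GV V)} {r : ℕ}

theorem semi_scal {g : GV V} (hg : Semi K g) (c : Kˣ) : ∃ d : Kˣ, g * scal K V c * g⁻¹ = scal K V d := by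
  obtain ⟨σ, hσ⟩ := hg
  refine ⟨Units.map σ.toRingHom.toMonoidHom c, GV_ext fun v => ?_⟩
  rw [mul_smul, mul_smul, scal_smul, scal_smul, hσ, smul_inv_smul]
  rfl

theorem neg_comm (g : GV V) : g * scal K V (-1) = scal K V (-1) * g := GV_ext fun v => by
  rw [mul_smul, mul_smul, scal_smul, scal_smul, Units.val_neg, Units.val_one, neg_one_smul, neg_one_smul, smul_neg]

/-- conjugates of good pairs are good -/
theorem good_conj (S : SetB K V A B r) {x : GV V} {v : V} (h : Good K r B x v) {g : GV V} (hg : g ∈ A) :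
    Good K r B (g * x * g⁻¹) (g • v) := by
  obtain ⟨h1, h2, h3, h4, h5, h6⟩ := h
  refine ⟨S.norm g hg x h1, ?_, ?_, ?_, ?_, ?_⟩
  · rw [conj_pow, h2, mul_one, mul_inv_cancel]
  · intro c hc
    obtain ⟨d, hd⟩ := semi_scal (S.semi g⁻¹ (A.inv_mem hg)) c
    apply h3 d
    rw [← hd, ← hc]
    group
  · intro h0
    exact h4 ((smul_eq_zero_iff_eq g).1 h0)
  · rw [mul_smul, mul_smul, inv_smul_smul, h5]
  · rintro b hb ⟨c, hc⟩
    have hb' : g⁻¹ * b * g⁻¹⁻¹ ∈ B := S.norm g⁻¹ (A.inv_mem hg) b hb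
    rw [inv_inv] at hb'
    obtain ⟨σ, hσ⟩ := S.semi g⁻¹ (A.inv_mem hg)
    obtain ⟨i, d, hd⟩ := h6 _ hb' ⟨Units.map σ.toRingHom.toMonoidHom c, by
      rw [mul_smul, mul_smul, hc, hσ, inv_smul_smul]
      rfl⟩
    obtain ⟨e, he⟩ := semi_scal (S.semi g hg) d
    refine ⟨i, e, ?_⟩
    rw [← he, conj_pow]
    have h7 : b = g * (g⁻¹ * b * g) * g⁻¹ := by group
    rw [h7, hd]
    group

/-- every nonscalar element does not commute with some good element -/
theorem exists_good (S : SetB K V A B r) (hg : ∃ x v, Good K r B x v) {x : GV V} (hx : x ∈ B)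
    (hns : ∀ c : Kˣ, x ≠ scal K V c) : ∃ x1 v, Good K r B x1 v ∧ x1 * x ≠ x * x1 := by
  by_contra hcon
  push Not at hcon
  let N : Subgroup (GV V) := Subgroup.closure ({y | ∃ v, Good K r B y v} ∪ Set.range (scal K V))
  have h1 : ∀ c : Kˣ, scal K V c ∈ N := fun c => Subgroup.subset_closure (Or.inr ⟨c, rfl⟩)
  have h2 : N ≤ B := by
    rw [Subgroup.closure_le]
    rintro y (⟨v, hv⟩ | ⟨c, rfl⟩)
    · exact hv.1
    · exact S.heis.scal_mem c
  have h3 : ∀ g ∈ A, ∀ b ∈ N, g * b * g⁻¹ ∈ N := by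
    intro g hg
    have h4 : N ≤ N.comap (MulAut.conj g).toMonoidHom := by
      rw [Subgroup.closure_le]
      rintro y (⟨v, hv⟩ | ⟨c, rfl⟩)
      · show g * y * g⁻¹ ∈ N
        exact Subgroup.subset_closure (Or.inl ⟨g • v, good_conj S hv hg⟩)
      · show g * scal K V c * g⁻¹ ∈ N
        obtain ⟨d, hd⟩ := semi_scal (S.semi g hg) c
        rw [hd]
        exact h1 d
    exact fun b hb => h4 hb
  rcases S.min N h1 h2 h3 with h4 | h4
  · obtain ⟨y, v, hv⟩ := hg
    obtain ⟨c, hc⟩ := h4 y (Subgroup.subset_closure (Or.inl ⟨v, hv⟩))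
    exact hv.2.2.1 c hc
  · obtain ⟨c, hc⟩ := S.heis.cent x hx (fun b hb => by
      have h5 : N ≤ Subgroup.centralizer ({x} : Set (GV V)) := by
        rw [Subgroup.closure_le]
        rintro y (⟨v, hv⟩ | ⟨c, rfl⟩)
        · rw [SetLike.mem_coe, Subgroup.mem_centralizer_singleton_iff]
          exact hcon y v hv
        · rw [SetLike.mem_coe, Subgroup.mem_centralizer_singleton_iff]
          exact ((S.heis.linb hx).scal_comm c).symm
      have h6 := h5 (h4 hb)
      rw [Subgroup.mem_centralizer_singleton_iff] at h6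
      exact h6.symm)
    exact hns c hc

/-- the elements of `B` fixing `v` -/
theorem fix_eq {x : GV V} {v : V} (h : Good K 2 B x v) {b : GV V} (hb : b ∈ B) (hv : b • v = v) :
    b = 1 ∨ b = x := by
  obtain ⟨h1, h2, h3, h4, h5, h6⟩ := h
  obtain ⟨i, c, hc⟩ := h6 b hb ⟨1, by rw [Units.val_one, one_smul, hv]⟩
  have h7 : ∀ n : ℕ, (x ^ n) • v = v := by
    intro n
    induction n with
    | zero => simp
    | succ n ih => rw [pow_succ, mul_smul, h5, ih]
  have h8 : c = 1 := by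
    rw [hc, mul_smul, h7, scal_smul] at hv
    apply Units.ext
    rw [Units.val_one]
    exact smul_left_injective K h4 (by simpa using hv)
  rw [h8, map_one, one_mul] at hc
  rcases Nat.even_or_odd' i with ⟨m, rfl | rfl⟩
  · left
    rw [hc, pow_mul, h2, one_pow]
  · right
    rw [hc, pow_succ, pow_mul, h2, one_pow, one_mul]

/-- `k` commutes with `e²`, then `k e k⁻¹` is not `± e x` -/
theorem no_twist [Nontrivial V] (h2 : (2 : K) ≠ 0) {x e k : GV V} (hx : x ^ 2 = 1) (he : Lin K e)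
    (hxe : CC (-1 : Kˣ) x e) (hk : k * e ^ 2 = e ^ 2 * k) {μ : Kˣ} (hμ : μ ^ 2 = 1)
    (h : k * e * k⁻¹ = scal K V μ * (e * x)) (hxl : Lin K x) : False := by
  have h3 : (k * e * k⁻¹) ^ 2 = e ^ 2 := by
    rw [conj_pow, hk, mul_inv_cancel_right]
  have h4 : (e * x) ^ 2 = scal K V (-1) * e ^ 2 := by
    unfold CC at hxe
    calc (e * x) ^ 2 = e * (x * e) * x := by rw [pow_two]; simp only [mul_assoc]
      _ = (e * scal K V (-1)) * (e * x) * x := by rw [hxe]; simp only [mul_assoc]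
      _ = scal K V (-1) * (e * e) * (x * x) := by rw [he.scal_comm]; simp only [mul_assoc]
      _ = scal K V (-1) * e ^ 2 := by rw [← pow_two, ← pow_two, hx, mul_one]
  have h5 : (scal K V μ * (e * x)) ^ 2 = scal K V (-1) * e ^ 2 := by
    rw [((he.mul hxl).scal_commute μ).symm.mul_pow, ← map_pow, hμ, map_one, one_mul, h4]
  rw [h, h5] at h3
  have h6 : scal K V (-1) = 1 := mul_eq_right.1 h3
  have h7 := scal_eq_one h6
  apply h2
  have h8 : ((-1 : Kˣ) : K) = 1 := by rw [h7, Units.val_one]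
  rw [Units.val_neg, Units.val_one] at h8
  linear_combination -h8

theorem commute_of_fix (S : SetB K V A B 2) (hn : ∀ h ∈ cl2 A, ∀ b ∈ B, h * b * h⁻¹ ∈ B) {x : GV V} {v : V}
    (hg : Good K 2 B x v) {a b : GV V} (ha : a ∈ B) (hb : b ∈ B) (hax : x * a = a * x) (hbx : CC (-1 : Kˣ) x b)
    (hb2 : b ^ 2 = 1 ∨ b ^ 2 = scal K V (-1)) (hab2 : (a * b) ^ 2 = 1 ∨ (a * b) ^ 2 = scal K V (-1))
    {k : GV V} (hk : k ∈ cl2 A) (hkv : k • v = v) (hkw : k • (a • v + b • v) = a • v + b • v) :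
    k * a = a * k ∧ k * b = b * k := by
  have hg' := hg
  obtain ⟨h1, h2, h3, h4, h5, h6⟩ := hg
  have hV : Nontrivial V := ⟨v, 0, h4⟩
  have h2K : (2 : K) ≠ 0 := by
    obtain ⟨y, hy, c, hc1, hc⟩ := S.heis.exists_cc_ne h1 h3
    have := prime_ne_zero Nat.prime_two hc1 (S.heis.cc_pow h1 hy hc)
    exact_mod_cast this
  have hkv' : k⁻¹ • v = v := by
    rw [inv_smul_eq_iff, hkv]
  have hkx : k * x = x * k := by
    have h7 : k * x * k⁻¹ = 1 ∨ k * x * k⁻¹ = x := by
      apply fix_eq hg' (hn k hk x h1)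
      rw [mul_smul, mul_smul, hkv', h5, hkv]
    rcases h7 with h7 | h7
    · exfalso
      apply h3 1
      rw [map_one]
      have : k * x = k := by rwa [mul_inv_eq_one] at h7
      exact mul_eq_left.1 this
    · rwa [mul_inv_eq_iff_eq_mul] at h7
  have hla := S.heis.linb ha
  have hlb := S.heis.linb hb
  have hlx := S.heis.linb h1
  set a' := k * a * k⁻¹ with ha'
  set b' := k * b * k⁻¹ with hb'
  have ha'B : a' ∈ B := hn k hk a ha
  have hb'B : b' ∈ B := hn k hk b hb
  have hav : a' • v = k • a • v := by rw [ha', mul_smul, mul_smul, hkv']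
  have hbv : b' • v = k • b • v := by rw [hb', mul_smul, mul_smul, hkv']
  have hkx' : x * k = k * x := hkx.symm
  have hkxi : k⁻¹ * x = x * k⁻¹ := by
    rw [inv_mul_eq_iff_eq_mul, ← mul_assoc, hkx, mul_inv_cancel_right]
  have e1 : x * a' = a' * x := by
    rw [ha']
    calc x * (k * a * k⁻¹) = (x * k) * a * k⁻¹ := by simp only [mul_assoc]
      _ = k * (x * a) * k⁻¹ := by rw [hkx']; simp only [mul_assoc]
      _ = k * a * (x * k⁻¹) := by rw [hax]; simp only [mul_assoc]
      _ = k * a * k⁻¹ * x := by rw [← hkxi]; simp only [mul_assoc]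
  have e2 : x * b' = scal K V (-1) * (b' * x) := by
    rw [hb']
    unfold CC at hbx
    calc x * (k * b * k⁻¹) = (x * k) * b * k⁻¹ := by simp only [mul_assoc]
      _ = k * (x * b) * k⁻¹ := by rw [hkx']; simp only [mul_assoc]
      _ = (k * scal K V (-1)) * b * (x * k⁻¹) := by rw [hbx]; simp only [mul_assoc]
      _ = scal K V (-1) * (k * b * k⁻¹ * x) := by rw [neg_comm, ← hkxi]; simp only [mul_assoc]
  have e3 : a' • v + b' • v = a • v + b • v := by
    rw [hav, hbv, ← smul_add, hkw]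
  have e4 : a' • v - a • v = b • v - b' • v := by
    rw [sub_eq_sub_iff_add_eq_add, e3, add_comm]
  have e5 : x • (a' • v - a • v) = a' • v - a • v := by
    have p1 : x • a' • v = a' • v := by rw [← mul_smul, e1]; rw [mul_smul a' x v, h5]
    have p2 : x • a • v = a • v := by rw [← mul_smul, hax]; rw [mul_smul a x v, h5]
    rw [smul_sub, p1, p2]
  have e6 : x • (b • v - b' • v) = -(b • v - b' • v) := by
    unfold CC at hbx
    rw [smul_sub, ← mul_smul, ← mul_smul, e2, hbx, mul_smul, mul_smul, mul_smul, mul_smul, h5, scal_smul, scal_smul,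
      Units.val_neg, Units.val_one, neg_one_smul, neg_one_smul]
    abel
  have e7 : a' • v - a • v = 0 := by
    have h8 : a' • v - a • v = -(a' • v - a • v) := by
      conv_rhs => rw [e4]
      rw [← e6, ← e4, e5]
    have h9 : (2 : K) • (a' • v - a • v) = 0 := by
      rw [two_smul]
      nth_rewrite 1 [h8]
      exact neg_add_cancel _
    exact (smul_eq_zero.1 h9).resolve_left h2K
  have e8 : a' • v = a • v := sub_eq_zero.1 e7
  have e9 : b' • v = b • v := by
    rw [e7] at e4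
    exact (sub_eq_zero.1 e4.symm).symm
  have f1 : a' = a ∨ a' = a * x := by
    have h8 : a⁻¹ * a' = 1 ∨ a⁻¹ * a' = x := by
      apply fix_eq hg' (B.mul_mem (B.inv_mem ha) ha'B)
      rw [mul_smul, e8, inv_smul_smul]
    rcases h8 with h8 | h8
    · left
      rw [inv_mul_eq_one] at h8
      exact h8.symm
    · right
      rw [inv_mul_eq_iff_eq_mul] at h8
      exact h8
  have f2 : b' = b ∨ b' = b * x := by
    have h8 : b⁻¹ * b' = 1 ∨ b⁻¹ * b' = x := by
      apply fix_eq hg' (B.mul_mem (B.inv_mem hb) hb'B)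
      rw [mul_smul, e9, inv_smul_smul]
    rcases h8 with h8 | h8
    · left
      rw [inv_mul_eq_one] at h8
      exact h8.symm
    · right
      rw [inv_mul_eq_iff_eq_mul] at h8
      exact h8
  have g1 : k * b ^ 2 = b ^ 2 * k := by
    rcases hb2 with h8 | h8
    · rw [h8, mul_one, one_mul]
    · rw [h8, neg_comm]
  have g2 : k * (a * b) ^ 2 = (a * b) ^ 2 * k := by
    rcases hab2 with h8 | h8
    · rw [h8, mul_one, one_mul]
    · rw [h8, neg_comm]
  have f3 : b' = b := by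
    rcases f2 with h8 | h8
    · exact h8
    · exfalso
      exact no_twist h2K h2 hlb hbx g1 (one_pow 2) (by rw [map_one, one_mul]; exact h8) hlx
  have f4 : a' = a := by
    rcases f1 with h8 | h8
    · exact h8
    · exfalso
      have h9 : CC (-1 : Kˣ) x (a * b) := by
        have := CC.mul_right hla (cc_one_iff.2 hax) hbx
        rwa [one_mul] at this
      refine no_twist h2K h2 (hla.mul hlb) h9 g2 (μ := -1) (by norm_num) ?_ hlx
      have h10 : k * (a * b) * k⁻¹ = a' * b' := by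
        rw [ha', hb']
        group
      rw [h10, h8, f3]
      unfold CC at hbx
      calc a * x * b = a * (x * b) := by rw [mul_assoc]
        _ = (a * scal K V (-1)) * (b * x) := by rw [hbx]; simp only [mul_assoc]
        _ = _ := by rw [hla.scal_comm]; simp only [mul_assoc]
  constructor
  · rw [ha', mul_inv_eq_iff_eq_mul] at f4
    exact f4
  · rw [hb', mul_inv_eq_iff_eq_mul] at f3
    exact f3

/-- the elements which `g` and `h` move in the same way modulo scalars -/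
def Same (K : Type*) {V : Type*} [Field K] [AddCommGroup V] [Module K V] (g h z : GV V) : Prop :=
  ∃ c : Kˣ, g * z * g⁻¹ = scal K V c * (h * z * h⁻¹)

theorem Same.mul {g h z z' : GV V} (hl : Lin K (h * z * h⁻¹)) (h1 : Same K g h z) (h2 : Same K g h z') :
    Same K g h (z * z') := by
  obtain ⟨c, hc⟩ := h1
  obtain ⟨d, hd⟩ := h2
  refine ⟨c * d, ?_⟩
  calc g * (z * z') * g⁻¹ = (g * z * g⁻¹) * (g * z' * g⁻¹) := by group
    _ = scal K V c * ((h * z * h⁻¹) * scal K V d) * (h * z' * h⁻¹) := by rw [hc, hd]; simp only [mul_assoc]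
    _ = scal K V c * scal K V d * ((h * z * h⁻¹) * (h * z' * h⁻¹)) := by rw [hl.scal_comm]; simp only [mul_assoc]
    _ = scal K V (c * d) * (h * (z * z') * h⁻¹) := by rw [map_mul]; group

theorem same_scal {g h : GV V} (hg : Semi K g) (hh : Semi K h) (c : Kˣ) : Same K g h (scal K V c) := by
  obtain ⟨d, hd⟩ := semi_scal hg c
  obtain ⟨e, he⟩ := semi_scal hh c
  refine ⟨d * e⁻¹, ?_⟩
  rw [hd, he, ← map_mul, inv_mul_cancel_right]

theorem same_of_commute {g h z : GV V} (hc : (g⁻¹ * h) * z = z * (g⁻¹ * h)) : Same K g h z := by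
  refine ⟨1, ?_⟩
  rw [map_one, one_mul]
  have h1 : h * z * h⁻¹ = g * ((g⁻¹ * h) * z) * h⁻¹ := by group
  rw [h1, hc]
  group

theorem same_symm_scal {g h z : GV V} (hg : Semi K g) (hh : Semi K h) {c : Kˣ} (hz : Same K g h (scal K V c * z)) :
    Same K g h z := by
  have h1 := Same.mul (z := scal K V c⁻¹) (by
    obtain ⟨d, hd⟩ := semi_scal hh c⁻¹
    rw [hd]
    exact lin_scal d) (same_scal hg hh c⁻¹) hz
  rwa [← mul_assoc, ← map_mul, inv_mul_cancel, map_one, one_mul] at h1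

/-- the main case: `x` is not scalar -/
theorem main_ns (S : SetB K V A B 2) (hs : ∀ h ∈ cl2 A, Semi K h)
    (hn : ∀ h ∈ cl2 A, ∀ b ∈ B, h * b * h⁻¹ ∈ B)
    (hpow : ∀ b ∈ B, ∃ c : Kˣ, b ^ 2 = scal K V (c ^ 2) ∨ b ^ 2 = scal K V (-c ^ 2))
    (hg : ∃ x v, Good K 2 B x v) {h : GV V} (hh : h ∈ cl2 A) {x y : GV V} (hx : x ∈ B) (hy : y ∈ B)
    (hns : ∀ c : Kˣ, x ≠ scal K V c) : ∃ g ∈ A, Same K g h x ∧ Same K g h y := by
  obtain ⟨x1, v, hgd, hne⟩ := exists_good S hg hx hns
  have h1 := hgd.1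
  have hV : Nontrivial V := ⟨v, 0, hgd.2.2.2.1⟩
  have hcc : ∀ z ∈ B, x1 * z = z * x1 ∨ CC (-1 : Kˣ) x1 z := by
    intro z hz
    obtain ⟨c, hc⟩ := S.heis.cc h1 hz
    have h2 := S.heis.cc_pow h1 hz hc
    have h3 : c = 1 ∨ c = -1 := by
      have h4 : (c : K) ^ 2 = 1 := by rw [← Units.val_pow_eq_pow_val, h2, Units.val_one]
      have h5 : ((c : K) - 1) * (c + 1) = 0 := by linear_combination h4
      rcases mul_eq_zero.1 h5 with h6 | h6
      · exact Or.inl (Units.ext (sub_eq_zero.1 h6))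
      · exact Or.inr (Units.ext (by rw [Units.val_neg, Units.val_one]; linear_combination h6))
    rcases h3 with rfl | rfl
    · exact Or.inl (cc_one_iff.1 hc)
    · exact Or.inr hc
  have hxc : CC (-1 : Kˣ) x1 x := (hcc x hx).resolve_left hne
  have hscale : ∀ z ∈ B, ∃ β : Kˣ, (scal K V β * z) ^ 2 = 1 ∨ (scal K V β * z) ^ 2 = scal K V (-1) := by
    intro z hz
    obtain ⟨c, hc⟩ := hpow z hz
    refine ⟨c⁻¹, ?_⟩
    rw [((S.heis.linb hz).scal_commute c⁻¹).symm.mul_pow, ← map_pow]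
    rcases hc with hc | hc
    · left
      rw [hc, ← map_mul, ← mul_pow, inv_mul_cancel, one_pow, map_one]
    · right
      rw [hc, ← map_mul, mul_neg, ← mul_pow, inv_mul_cancel, one_pow]
  obtain ⟨β, hβ⟩ := hscale x hx
  have hbB : scal K V β * x ∈ B := B.mul_mem (S.heis.scal_mem β) hx
  have hbc : CC (-1 : Kˣ) x1 (scal K V β * x) := by
    have := CC.mul_right (lin_scal β) (CC.scal_right (S.heis.linb h1) β) hxc
    rwa [one_mul] at this
  -- the general step
  have key : ∀ a ∈ B, x1 * a = a * x1 → ∃ g ∈ A, Same K g h x ∧ Same K g h a := by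
    intro a0 ha0 hcomm
    obtain ⟨α, hα⟩ := hscale (a0 * (scal K V β * x)) (B.mul_mem ha0 hbB)
    have haB : scal K V α * a0 ∈ B := B.mul_mem (S.heis.scal_mem α) ha0
    have hac : x1 * (scal K V α * a0) = (scal K V α * a0) * x1 := by
      rw [← mul_assoc, (S.heis.linb h1).scal_comm, mul_assoc, hcomm, mul_assoc]
    rw [← mul_assoc] at hα
    obtain ⟨g, hgA, hg1, hg2⟩ := hh v ((scal K V α * a0) • v + (scal K V β * x) • v)
    have hk : g⁻¹ * h ∈ cl2 A := (cl2 A).mul_mem ((cl2 A).inv_mem (le_cl2 A hgA)) hh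
    obtain ⟨k1, k2⟩ := commute_of_fix S hn hgd haB hbB hac hbc hβ hα hk
      (by rw [mul_smul, ← hg1, inv_smul_smul]) (by rw [mul_smul, ← hg2, inv_smul_smul])
    exact ⟨g, hgA, same_symm_scal (S.semi g hgA) (hs h hh) (same_of_commute k2),
      same_symm_scal (S.semi g hgA) (hs h hh) (same_of_commute k1)⟩
  rcases hcc y hy with h2 | h2
  · exact key y hy h2
  · have h3 : x1 * (x * y) = x * y * x1 := by
      have h4 := CC.mul_right (S.heis.linb hx) hxc h2
      have h5 : (-1 : Kˣ) * -1 = 1 := by norm_num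
      rw [h5] at h4
      exact cc_one_iff.1 h4
    obtain ⟨g, hgA, g1, g2⟩ := key (x * y) (B.mul_mem hx hy) h3
    refine ⟨g, hgA, g1, ?_⟩
    obtain ⟨e, he⟩ := S.heis.pow x hx
    apply same_symm_scal (S.semi g hgA) (hs h hh) (c := e)
    rw [← he, pow_two, mul_assoc]
    exact Same.mul (S.heis.linb (hn h hh x hx)) g1 g2

/-- **EncTwo.** -/
theorem EncTwo.main (S : SetB K V A B 2) (hs : ∀ h ∈ cl2 A, Semi K h)
    (hn : ∀ h ∈ cl2 A, ∀ b ∈ B, h * b * h⁻¹ ∈ B)
    (hpow : ∀ b ∈ B, ∃ c : Kˣ, b ^ 2 = scal K V (c ^ 2) ∨ b ^ 2 = scal K V (-c ^ 2))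
    (hg : ∃ x v, Good K 2 B x v) : PairAgree K A B := by
  intro h hh x hx y hy
  by_cases h1 : ∀ c : Kˣ, x ≠ scal K V c
  · exact main_ns S hs hn hpow hg hh hx hy h1
  by_cases h2 : ∀ c : Kˣ, y ≠ scal K V c
  · obtain ⟨g, hgA, g1, g2⟩ := main_ns S hs hn hpow hg hh hy hx h2
    exact ⟨g, hgA, g2, g1⟩
  push Not at h1 h2
  obtain ⟨c, rfl⟩ := h1
  obtain ⟨d, rfl⟩ := h2
  exact ⟨1, A.one_mem, same_scal (S.semi 1 A.one_mem) (hs h hh) c, same_scal (S.semi 1 A.one_mem) (hs h hh) d⟩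

end Cfsg.Agent.H352.TcEncTwo
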